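import Mathlib
import Cfsg.Agent.Ch.Clifford
import Cfsg.Agent.Ch.Linear
import Cfsg.Agent.Cl.PSL2Dickson

/-!
# Linear groups of degree two
-/

set_option autoImplicit false

namespace Cfsg.Agent.Ch

open Cfsg Cfsg.Agent.Cl.L2
open scoped MatrixGroups

variable {G : Type*} [Group G]

/-- An irreducible character whose degree is at least the index of an abelian subgroup is induced
from a linear character of that subgroup. -/
theorem degTwo_exists_indFun [Fintype G] {χ : G → ℂ} (hχ : IsIrrCharacter G χ) (A : Subgroup G)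
    (hA : ∀ a ∈ A, ∀ b ∈ A, a * b = b * a) (h : A.index ≤ charDegree χ) :
    ∃ θ : A → ℂ, IsIrrCharacter A θ ∧ θ 1 = 1 ∧ indFun A θ = χ := by
  have := Fintype.ofFinite A
  obtain ⟨θ, hθ, hne⟩ := exists_irr_under A hχ
  have h1 := hθ.apply_one_eq_one_of_comm fun a b => Subtype.ext (hA a a.2 b b.2)
  have h2 := isCharacter_indFun A hθ.isCharacter
  rw [← classInner_indFun_eq_res A hθ.isCharacter hχ.isCharacter] at hne
  have h3 : charDegree (indFun A θ) = A.index :=
    charDegree_of_apply_one (by rw [indFun_one, h1, mul_one])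
  refine ⟨θ, hθ, h1, h2.eq_irr_of_apply_one hχ hne ?_⟩
  rw [← h2.coe_charDegree, ← hχ.coe_charDegree, le_antisymm (h2.charDegree_irr_le hχ hne) (h3 ▸ h)]

/-- Elements of finite order in `PGL(2, ℂ)` are semisimple. -/
theorem degTwo_tau_ne_four {g : PGL(2, ℂ)} (hg : IsOfFinOrder g) (h1 : g ≠ 1) : tau g ≠ 4 := by
  intro h
  obtain ⟨x, hx⟩ := exists_fix_of_isAlgClosed g
  obtain ⟨c, rfl⟩ := exists_smul_one x
  obtain ⟨b, rfl⟩ := mem_uni_smul_inf.1 (mem_uni.2 ⟨hx, h⟩)
  obtain ⟨n, hn, h2⟩ := isOfFinOrder_iff_pow_eq_one.1 hg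
  rw [conj_pow, aff_one_pow, mul_inv_eq_one, mul_eq_left, aff_eq_one_iff one_ne_zero,
    mul_eq_zero, Nat.cast_eq_zero] at h2
  exact h1 (by rw [h2.2.resolve_left hn.ne', aff_one_zero]; simp)

/-- A faithful irreducible character of degree two gives an embedding of `G / Z(G)` in
`PGL(2, ℂ)`. -/
theorem degTwo_exists_hom [Finite G] {χ : G → ℂ} (hχ : IsIrrCharacter G χ) (hf : charKer χ = ⊥)
    (h2 : charDegree χ = 2) : ∃ φ : G →* PGL(2, ℂ), φ.ker = Subgroup.center G := by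
  obtain ⟨n, ρ, hρ, rfl⟩ := id hχ
  obtain rfl : n = 2 := by simpa [charDegree_character] using h2
  have hd : ∀ g, (LinearMap.toMatrix' (ρ g)).det ≠ 0 := fun g =>
    left_ne_zero_of_mul_eq_one (b := (LinearMap.toMatrix' (ρ g⁻¹)).det) (by
      rw [← Matrix.det_mul, ← LinearMap.toMatrix'_mul, ← map_mul, mul_inv_cancel, map_one,
        LinearMap.toMatrix'_one, Matrix.det_one])
  refine ⟨MonoidHom.mk' (fun g => pm (LinearMap.toMatrix' (ρ g))) fun a b => by
    rw [map_mul, LinearMap.toMatrix'_mul, pm_mul (hd a) (hd b)], ?_⟩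
  ext g
  rw [← hχ.charCenter_eq_center hf, mem_charCenter_character, MonoidHom.mem_ker,
    MonoidHom.mk'_apply, pm_eq_one_iff' (hd g)]
  refine exists_congr fun c => ?_
  rw [← LinearMap.toMatrix'.injective.eq_iff, map_smul, LinearMap.toMatrix'_id]

/-- A finite group with a faithful irreducible character of degree two has an abelian subgroup of
index at most two, or `G / Z(G)` is `A₄`, `S₄` or `A₅`. -/
theorem degTwo_classify [Finite G] {χ : G → ℂ} (hχ : IsIrrCharacter G χ) (hf : charKer χ = ⊥)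
    (h2 : charDegree χ = 2) :
    (∃ A : Subgroup G, (∀ a ∈ A, ∀ b ∈ A, a * b = b * a) ∧ A.index ≤ 2) ∨
      Nonempty (G ⧸ Subgroup.center G ≃* alternatingGroup (Fin 4)) ∨
      Nonempty (G ⧸ Subgroup.center G ≃* Equiv.Perm (Fin 4)) ∨
      Nonempty (G ⧸ Subgroup.center G ≃* alternatingGroup (Fin 5)) := by
  obtain ⟨φ, hφ⟩ := degTwo_exists_hom hχ hf h2
  have : Finite φ.range := Finite.of_surjective _ φ.rangeRestrict_surjective
  have hreg : ∀ h ∈ φ.range, h ≠ 1 → tau h ≠ 4 := by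
    rintro _ ⟨g, rfl⟩ h1
    exact degTwo_tau_ne_four (φ.isOfFinOrder (isOfFinOrder_of_finite g)) h1
  have key : ∀ g, tau g ≠ 4 → φ.range ≤ ntor g →
      ∃ A : Subgroup G, (∀ a ∈ A, ∀ b ∈ A, a * b = b * a) ∧ A.index ≤ 2 := fun g ht hle => by
    refine ⟨(tor g).comap φ, fun a ha b hb => ?_, ?_⟩
    · have : Finite (((tor g).comap φ).map φ) :=
        Finite.of_surjective _ (φ.subgroupMap_surjective _)
      have := isCyclic_of_le_tor ht (Subgroup.map_comap_le φ (tor g))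
      refine congrArg Subtype.val ((MonoidHom.isMulCommutative_of_isCyclic_of_ker_le_center
        (φ.subgroupMap ((tor g).comap φ)) (fun x hx => ?_)).is_comm.comm ⟨a, ha⟩ ⟨b, hb⟩)
      have hx' : (x : G) ∈ Subgroup.center G := hφ ▸ congrArg Subtype.val hx
      exact Subgroup.mem_center_iff.2 fun y => Subtype.ext (Subgroup.mem_center_iff.1 hx' y)
    · rw [Subgroup.index_comap]
      exact (Subgroup.relIndex_le_of_le_right hle (by rw [relIndex_tor_ntor ht]; norm_num)).trans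
        (relIndex_tor_ntor ht).le
  have e : G ⧸ Subgroup.center G ≃* φ.range :=
    (QuotientGroup.quotientMulEquivOfEq hφ.symm).trans (QuotientGroup.quotientKerEquivRange φ)
  rcases dickson_regular φ.range hreg with ⟨x, hx⟩ | ⟨g, -, ht, hle⟩ | ⟨⟨f⟩⟩ | ⟨⟨f⟩⟩ | ⟨⟨f⟩⟩
  · by_cases hb : φ.range = ⊥
    · refine Or.inl ⟨⊤, fun a _ b _ => ?_, by simp⟩
      have : b ∈ φ.ker := Subgroup.mem_bot.1 (hb ▸ ⟨b, rfl⟩)
      exact Subgroup.mem_center_iff.1 (hφ ▸ this) a
    obtain ⟨⟨g, hg⟩, h1⟩ := (Subgroup.ne_bot_iff_exists_ne_one).1 hb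
    have h1' : g ≠ 1 := fun h => h1 (Subtype.ext h)
    refine Or.inl (key g (hreg g hg h1') fun h hh => mem_ntor_of_comm h1' ?_)
    by_contra hne
    refine hreg _ (φ.range.mul_mem (φ.range.mul_mem (φ.range.mul_mem hh hg) (φ.range.inv_mem hh))
      (φ.range.inv_mem hg)) (fun h0 => hne ?_) (commutator_mem_uni (hx h hh) (hx g hg)).2
    rwa [mul_inv_eq_one, mul_inv_eq_iff_eq_mul] at h0
  · exact Or.inl (key g ht hle)
  · exact Or.inr (Or.inl ⟨e.trans f⟩)
  · exact Or.inr (Or.inr (Or.inl ⟨e.trans f⟩))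
  · exact Or.inr (Or.inr (Or.inr ⟨e.trans f⟩))

end Cfsg.Agent.Ch
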