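import Mathlib
import Cfsg.Agent.Ch.DegTwo
import Cfsg.Agent.Ch.Det
import Cfsg.Agent.Ch.Blichfeldt
import Cfsg.Agent.Ch.Burnside
import Cfsg.Agent.FG.H93Solv

/-!
# Groups all of whose nonlinear character degrees are prime
-/

set_option autoImplicit false

namespace Cfsg.Agent.Ch

open Cfsg Cfsg.Agent.Cl.L2

universe u

variable {G : Type*} [Group G] [Finite G]

/-- In a perfect group every involution is represented by a scalar in degree two. -/
theorem degP_mem_charCenter {χ : G → ℂ} (hχ : IsCharacter G χ) (h2 : charDegree χ = 2)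
    (hG : commutator G = ⊤) {t : G} (ht : t * t = 1) : t ∈ charCenter χ := by
  obtain ⟨n, ρ, rfl⟩ := id hχ
  obtain rfl : n = 2 := by simpa [charDegree_character] using h2
  have h1 : (LinearMap.toMatrix' (ρ t)).det = 1 := by
    have := congrFun ((isIrrCharacter_monoidHom_units (detHom ρ)).eq_one_of_commutator_eq_top
      (by simp) hG) t
    rwa [coe_detHom, ← LinearMap.det_toMatrix'] at this
  have h3 := mul_self_two (LinearMap.toMatrix' (ρ t))
  rw [← LinearMap.toMatrix'_mul, ← map_mul, ht, map_one, LinearMap.toMatrix'_one, h1, one_smul,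
    eq_sub_iff_add_eq, ← two_smul ℂ] at h3
  have h4 : (LinearMap.toMatrix' (ρ t)).trace ≠ 0 := fun h => by
    rw [h, zero_smul] at h3
    simpa using congrFun (congrFun h3 0) 0
  refine (mem_charCenter_character ρ t).2 ⟨(LinearMap.toMatrix' (ρ t)).trace⁻¹ * 2, ?_⟩
  rw [← LinearMap.toMatrix'.injective.eq_iff, map_smul, LinearMap.toMatrix'_id, mul_smul, h3,
    inv_smul_smul₀ h4]

theorem degP_isSolvable_of_simple [IsSimpleGroup G]
    (h : ∀ χ, IsIrrCharacter G χ → charDegree χ ≠ 1 → (charDegree χ).Prime) :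
    Group.IsSolvable G := by
  classical
  by_contra hs
  have hG : commutator G = ⊤ := (Subgroup.Normal.eq_bot_or_eq_top inferInstance).resolve_left
    fun h => hs ⟨1, h⟩
  have hZ : Subgroup.center G = ⊥ := (Subgroup.Normal.eq_bot_or_eq_top inferInstance).resolve_right
    fun h => hs (Group.isSolvable_of_comm fun a b =>
      Subgroup.mem_center_iff.1 (h ▸ Subgroup.mem_top b) a)
  have hex : ∃ n, ∃ χ, IsIrrCharacter G χ ∧ charDegree χ ≠ 1 ∧ charDegree χ = n := by
    obtain ⟨χ, hχ⟩ := exists_irr_nonlinear fun h => hs (Group.isSolvable_of_comm h)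
    exact ⟨_, χ, χ.2, mt χ.isCharacter.charDegree_eq_one_iff.1 hχ, rfl⟩
  have hfa : ∀ χ, IsIrrCharacter G χ → charDegree χ ≠ 1 → charKer χ = ⊥ := fun χ hχ h1 =>
    hχ.charKer_eq_bot_of_simple (by rintro rfl; exact h1 charDegree_one)
  obtain ⟨χ, hχ, h1, hn⟩ := Nat.find_spec hex
  have hp := h χ hχ h1
  have h2 : charDegree χ ≠ 2 := fun h2 => by
    obtain ⟨t, ht⟩ := exists_prime_orderOf_dvd_card' 2 (h2 ▸ hχ.charDegree_dvd_card)
    have := degP_mem_charCenter hχ.isCharacter h2 hG (t := t)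
      (by rw [← pow_two, ← ht, pow_orderOf_eq_one])
    rw [hχ.charCenter_eq_center (hfa χ hχ h1), hZ, Subgroup.mem_bot] at this
    simp [this] at ht
  obtain ⟨A, hA, hab⟩ := hχ.isCharacter.exists_abelian_isPiHall (hfa χ hχ h1) le_rfl
  obtain ⟨x, hx1, hx⟩ : ∃ x : G, x ≠ 1 ∧ ∀ q, q.Prime → q ∣ Nat.card G → charDegree χ + 1 < q →
      ¬ q ∣ (Subgroup.centralizer ({x} : Set G)).index := by
    by_cases hA1 : A = ⊥
    · obtain ⟨x, hx⟩ := exists_ne (1 : G)
      refine ⟨x, hx, fun q hq hqd hlt => absurd hlt (hA.index q hq ?_)⟩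
      rwa [hA1, Subgroup.index_bot]
    · obtain ⟨⟨x, hx⟩, hx1⟩ := Subgroup.ne_bot_iff_exists_ne_one.1 hA1
      refine ⟨x, fun h => hx1 (Subtype.ext h), fun q hq _ hlt hd => hA.index q hq
        (hd.trans (Subgroup.index_dvd_of_le fun a ha => ?_)) hlt⟩
      exact Subgroup.mem_centralizer_singleton_iff.2 (hab a ha x hx)
  obtain ⟨ψ, hψ1, hψ2, hψ3⟩ := burnside_exists_irr_not_dvd_apply_ne_zero hp hx1
  have h3 : charDegree (ψ : G → ℂ) ≠ 1 := fun h => hψ1 (Subtype.ext
    (ψ.2.eq_one_of_commutator_eq_top (ψ.isCharacter.charDegree_eq_one_iff.1 h) hG))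
  have hq := h ψ ψ.2 h3
  have h4 : charDegree χ ≤ charDegree (ψ : G → ℂ) := hn ▸ Nat.find_min' hex ⟨ψ, ψ.2, h3, rfl⟩
  have h5 : charDegree χ + 1 < charDegree (ψ : G → ℂ) := by
    have h6 : charDegree χ ≠ charDegree (ψ : G → ℂ) := fun h => hψ2 (h ▸ dvd_rfl)
    have := hp.two_le
    have := hp.eq_two_or_odd
    have := hq.eq_two_or_odd
    omega
  rcases ψ.2.eq_zero_or_mem_charCenter_of_coprime
    ((Nat.Prime.coprime_iff_not_dvd hq).2 (hx _ hq ψ.2.charDegree_dvd_card h5)) with h6 | h6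
  · exact hψ3 h6
  · rw [ψ.2.charCenter_eq_center (hfa ψ ψ.2 h3), hZ] at h6
    exact hx1 h6

/-- A group all of whose nonlinear irreducible characters have prime degree is solvable. -/
theorem degP_isSolvable {G : Type u} [Group G] [Finite G]
    (h : ∀ χ, IsIrrCharacter G χ → charDegree χ ≠ 1 → (charDegree χ).Prime) :
    Group.IsSolvable G := by
  refine FG.H93.isSolvable_of_simple_sections (P := fun G _ _ =>
    ∀ χ, IsIrrCharacter G χ → charDegree χ ≠ 1 → (charDegree χ).Prime)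
    (fun G _ _ N _ h θ hθ h1 => ?_) (fun G _ _ N _ h θ hθ h1 => h _ hθ.comp_mk h1)
    (fun G _ _ _ h => degP_isSolvable_of_simple h) G h
  have := Fintype.ofFinite G
  have := Fintype.ofFinite N
  obtain ⟨χ, hχ, hne⟩ := exists_irr_over N hθ
  have h2 := charDegree_dvd_of_under hχ hθ hne
  by_cases h3 : charDegree χ = 1
  · exact absurd (Nat.dvd_one.1 (h3 ▸ h2)) h1
  · exact ((Nat.dvd_prime (h χ hχ h3)).1 h2).resolve_left h1 ▸ h χ hχ h3

end Cfsg.Agent.Ch
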