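import Mathlib

/-!
Groups of central type with small non-abelian Sylow subgroups: group-theoretic preliminaries.
-/

set_option autoImplicit false
set_option linter.style.haveILetI false
set_option linter.unusedSectionVars false

open Function Subgroup

namespace Cfsg.Agent.GagSol

/-- `p`-subgroups are commutative whenever `p ^ 6` divides the order. -/
def Hyp (X : Type*) [Group X] : Prop :=
  ∀ p : ℕ, p.Prime → p ^ 6 ∣ Nat.card X → ∀ P : Subgroup X, IsPGroup p P →
    ∀ a ∈ P, ∀ b ∈ P, a * b = b * a

/-- The centre of every `2`-subgroup has index dividing `4`. -/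
def Two (X : Type*) [Group X] : Prop :=
  ∀ P : Subgroup X, IsPGroup 2 P → (center P).index ∣ 4

variable {X Y A : Type*} [Group X] [Group Y] [Group A]

theorem hyp_of_sylow [Finite X]
    (h : ∀ p : ℕ, p.Prime → p ^ 6 ∣ Nat.card X → ∀ P : Sylow p X, IsMulCommutative P) : Hyp X := by
  intro p hp h6 P hP a ha b hb
  haveI := Fact.mk hp
  obtain ⟨Q, hQ⟩ := hP.exists_le_sylow
  exact congrArg Subtype.val
    ((h p hp h6 Q).is_comm.comm (⟨a, hQ ha⟩ : (Q : Subgroup X)) ⟨b, hQ hb⟩)

theorem Hyp.of_injective (h : Hyp X) {f : Y →* X} (hf : Injective f) : Hyp Y := by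
  intro p hp h6 P hP a ha b hb
  apply hf
  rw [map_mul, map_mul]
  exact h p hp (h6.trans (card_dvd_of_injective f hf)) (P.map f) (hP.map f) _
    (mem_map_of_mem f ha) _ (mem_map_of_mem f hb)

theorem Hyp.of_surjective [Finite X] (h : Hyp X) {f : X →* Y} (hf : Surjective f) : Hyp Y := by
  intro p hp h6 P hP a ha b hb
  haveI := Fact.mk hp
  haveI : Finite Y := Finite.of_surjective f hf
  obtain ⟨Q, hQ⟩ := hP.exists_le_sylow
  obtain ⟨R, rfl⟩ := Sylow.mapSurjective_surjective hf p Q
  obtain ⟨x, hx, rfl⟩ := hQ ha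
  obtain ⟨y, hy, rfl⟩ := hQ hb
  rw [← map_mul, ← map_mul, h p hp (h6.trans (card_dvd_of_surjective f hf)) R R.2 x hx y hy]

theorem exists_section (f : A →* X) {g : A →* Y} (hg : Surjective g) (hk : f.ker ≤ g.ker) :
    ∃ k : f.range →* Y, Surjective k := by
  refine ⟨f.rangeRestrict.liftOfSurjective f.rangeRestrict_surjective
    ⟨g, by rwa [MonoidHom.ker_rangeRestrict]⟩, fun y => ?_⟩
  obtain ⟨a, rfl⟩ := hg y
  exact ⟨f.rangeRestrict a, MonoidHom.liftOfRightInverse_comp_apply _ _ _ _ _⟩

theorem Hyp.transfer [Finite X] (h : Hyp X) (f : A →* X) {g : A →* Y} (hg : Surjective g)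
    (hk : f.ker ≤ g.ker) : Hyp Y := by
  obtain ⟨k, hk⟩ := exists_section f hg hk
  exact (h.of_injective f.range.subtype_injective).of_surjective hk

theorem solv_transfer [Group.IsSolvable X] (f : A →* X) {g : A →* Y} (hg : Surjective g)
    (hk : f.ker ≤ g.ker) : Group.IsSolvable Y := by
  obtain ⟨k, hk⟩ := exists_section f hg hk
  exact Group.isSolvable_of_surjective hk

theorem index_center_dvd {f : Y →* X} (hf : Injective f) : (center Y).index ∣ (center X).index := by
  have h1 : (center X).comap f ≤ center Y := fun y hy => mem_center_iff.2 fun z => hf (by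
    rw [map_mul, map_mul]
    exact mem_center_iff.1 hy (f z))
  refine (index_dvd_of_le h1).trans ?_
  rw [index_comap]
  exact relIndex_dvd_index_of_normal _ _

theorem Two.of_injective (h : Two X) {f : Y →* X} (hf : Injective f) : Two Y := fun P hP =>
  (index_center_dvd (f := (P.equivMapOfInjective f hf : P →* P.map f))
    (P.equivMapOfInjective f hf).injective).trans (h _ (hP.map f))

/-- A subgroup of index two together with an element outside generates. -/
theorem comm_all_of_index_two {T : Type*} [Group T] {B : Subgroup T} (hB : B.index = 2) {y a : T}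
    (hy : y ∉ B) (h1 : ∀ b ∈ B, b * a = a * b) (h2 : y * a = a * y) : a ∈ center T := by
  refine mem_center_iff.2 fun g => ?_
  by_cases hg : g ∈ B
  · exact h1 g hg
  · have : g * y⁻¹ ∈ B := (mul_mem_iff_of_index_two hB).2 (by simp [hg, hy])
    have h3 := h1 _ this
    calc g * a = g * y⁻¹ * (y * a) := by group
      _ = g * y⁻¹ * a * y := by rw [h2]; group
      _ = a * g := by rw [h3]; group

/-- A group of order `16` without self-centralising cyclic subgroups has centre of order at
least `4`. -/
theorem index_center_of_sixteen {T : Type*} [Group T] [Finite T] (hT : Nat.card T = 16)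
    (hno : ∀ C : Subgroup T, IsCyclic C → centralizer (C : Set T) ≠ C) :
    (center T).index ∣ 4 := by
  haveI : Fact (Nat.Prime 2) := ⟨Nat.prime_two⟩
  have hp : IsPGroup 2 T := IsPGroup.of_card (n := 4) (by rw [hT]; norm_num)
  haveI : Nontrivial T := Finite.one_lt_card_iff_nontrivial.1 (by omega)
  have hZ := (center T).card_mul_index
  have hZ1 : 1 < Nat.card (center T) := Finite.one_lt_card_iff_nontrivial.2 hp.center_nontrivial
  obtain ⟨k, hk, hk'⟩ := (Nat.dvd_prime_pow Nat.prime_two (m := 4)).1
    (show Nat.card (center T) ∣ 2 ^ 4 from ⟨_, by rw [hZ, hT]; norm_num⟩)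
  rw [hk', hT] at hZ
  by_cases hk1 : k ≠ 1
  · rw [hk'] at hZ1
    interval_cases k
    · omega
    · omega
    · exact ⟨1, by omega⟩
    · exact ⟨2, by omega⟩
    · exact ⟨4, by omega⟩
  exfalso
  obtain rfl : k = 1 := by omega
  have hz2 : ∀ z ∈ center T, ∀ w ∈ center T, z ≠ 1 → w ≠ 1 → z = w := by
    intro z hz w hw hz1 hw1
    obtain ⟨u, -, hu⟩ := (Nat.card_eq_two_iff' (1 : center T)).1 (by rw [hk']; norm_num)
    have e1 := hu ⟨z, hz⟩ (fun h => hz1 (congrArg Subtype.val h))
    have e2 := hu ⟨w, hw⟩ (fun h => hw1 (congrArg Subtype.val h))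
    exact congrArg Subtype.val (e1.trans e2.symm)
  have hq : IsPGroup 2 (T ⧸ center T) := hp.to_quotient _
  haveI : Nontrivial (T ⧸ center T) := Finite.one_lt_card_iff_nontrivial.1 (by
    rw [← index_eq_card]; omega)
  obtain ⟨⟨xb, hxb⟩, hx1⟩ := @exists_ne _ hq.center_nontrivial 1
  obtain ⟨x, rfl⟩ := QuotientGroup.mk_surjective xb
  have hxZ : x ∉ center T := fun h => hx1 (Subtype.ext ((QuotientGroup.eq_one_iff x).2 h))
  have hc : ∀ g : T, g * x * g⁻¹ * x⁻¹ ∈ center T := fun g => by
    rw [← QuotientGroup.eq_one_iff]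
    have := mem_center_iff.1 hxb (g : T ⧸ center T)
    simp only [QuotientGroup.mk_mul, QuotientGroup.mk_inv]
    rw [this]; group
  set B := centralizer ({x} : Set T) with hBd
  have hB : ∀ g, g ∈ B ↔ g * x * g⁻¹ * x⁻¹ = 1 := fun g => by
    rw [hBd, mem_centralizer_singleton_iff, mul_inv_eq_one, mul_inv_eq_iff_eq_mul]
  obtain ⟨y0, hy0⟩ : ∃ y, y ∉ B := by
    by_contra! h
    exact hxZ (mem_center_iff.2 fun g => mem_centralizer_singleton_iff.1 (h g))
  have hB2 : B.index = 2 := by
    refine index_eq_two_iff.2 ⟨y0⁻¹, fun b => ?_⟩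
    by_cases hb : b ∈ B
    · refine Or.inr ⟨hb, fun h => hy0 ?_⟩
      simpa using B.mul_mem (B.inv_mem h) hb
    · refine Or.inl ⟨?_, hb⟩
      have e := hz2 _ (hc b⁻¹) _ (hc y0⁻¹) (fun h => hb (by simpa using (hB _).2 h))
        (fun h => hy0 (by simpa using (hB _).2 h))
      rw [hB]
      have e' : b⁻¹ * x * b = y0⁻¹ * x * y0 := by simpa using e
      have e3 := mem_center_iff.1 (hc y0⁻¹)
      have e4 := mem_center_iff.1 (hc b)
      calc b * y0⁻¹ * x * (b * y0⁻¹)⁻¹ * x⁻¹ = b * (y0⁻¹ * x * y0) * b⁻¹ * x⁻¹ := by group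
        _ = 1 := by rw [← e']; group
  have hBc : Nat.card B = 8 := by
    have := B.card_mul_index
    rw [hB2, hT] at this
    omega
  have hZB : center T ≤ B := center_le_centralizer _
  have hxB : x ∈ B := mem_centralizer_singleton_iff.2 rfl
  -- `B` is commutative
  have hBcomm : ∀ a ∈ B, ∀ b ∈ B, a * b = b * a := by
    have h1 : (center T).subgroupOf B < center B := by
      refine lt_of_le_of_ne (fun z hz => mem_center_iff.2 fun g =>
        Subtype.ext (mem_center_iff.1 hz g)) fun h => hxZ ?_
      have : (⟨x, hxB⟩ : B) ∈ center B := mem_center_iff.2 fun g =>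
        Subtype.ext (mem_centralizer_singleton_iff.1 g.2)
      rwa [← h] at this
    have h2 : Nat.card ((center T).subgroupOf B) = 2 := by
      rw [Nat.card_congr (subgroupOfEquivOfLe hZB).toEquiv, hk']; norm_num
    have h3 : Nat.card ((center T).subgroupOf B) < Nat.card (center B) :=
      Nat.lt_of_le_of_ne (card_le_of_le h1.le) fun h => h1.ne (eq_of_le_of_card_ge h1.le h.ge)
    have h4 := (center B).card_mul_index
    have h5 : (center B).index ∣ 2 := by
      rw [hBc] at h4
      have : (center B).index ≤ 2 := by nlinarith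
      have h0 : (center B).index ≠ 0 := index_ne_zero_of_finite
      interval_cases (center B).index
      · exact absurd rfl h0
      · exact ⟨2, rfl⟩
      · exact ⟨1, rfl⟩
    haveI : IsCyclic (B ⧸ center B) := isCyclic_of_card_dvd_prime (p := 2) h5
    intro a ha b hb
    exact congrArg Subtype.val (commutative_of_cyclic_center_quotient
      (QuotientGroup.mk' (center B)) (by simp) ⟨a, ha⟩ ⟨b, hb⟩)
  have hfix : ∀ y ∉ B, ∀ a ∈ B, y * a = a * y → a ∈ center T := fun y hy a ha h =>
    comm_all_of_index_two hB2 hy (fun b hb => hBcomm b hb a ha) h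
  have hcz : ∀ y : T, centralizer (zpowers y : Set T) = centralizer {y} := fun y => by
    rw [zpowers_eq_closure, centralizer_closure]
  -- elements outside `B` are involutions
  have hinv : ∀ y ∉ B, y * y = 1 := by
    intro y hy
    by_contra h2
    refine hno (zpowers y) inferInstance (le_antisymm (fun g hg => ?_) ?_)
    · rw [hcz, mem_centralizer_singleton_iff] at hg
      have hyy : y * y ∈ center T := hfix y hy _ (mul_self_mem_of_index_two hB2 y) (by group)
      have key : ∀ a ∈ center T, a ∈ zpowers y := fun a ha => by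
        by_cases h1 : a = 1
        · rw [h1]; exact one_mem _
        · rw [hz2 a ha _ hyy h1 h2]
          exact mul_mem (mem_zpowers y) (mem_zpowers y)
      by_cases hgB : g ∈ B
      · exact key g (hfix y hy g hgB hg.symm)
      · have h3 : g * y⁻¹ ∈ B := (mul_mem_iff_of_index_two hB2).2 (by simp [hgB, hy])
        have h4 := key _ (hfix y hy _ h3 (by rw [← mul_assoc, ← hg]; group))
        simpa using mul_mem h4 (mem_zpowers y)
    · rw [hcz]
      exact zpowers_le.2 (mem_centralizer_singleton_iff.2 rfl)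
  have hsq : ∀ a ∈ B, a * a = 1 → a ∈ center T := by
    intro a ha h
    have h1 := hinv (y0 * a) (fun h' => hy0 (by simpa using B.mul_mem h' (B.inv_mem ha)))
    have h2 := hinv y0 hy0
    refine hfix y0 hy0 a ha ?_
    calc y0 * a = (y0 * a)⁻¹ := by rw [eq_inv_iff_mul_eq_one, h1]
      _ = a * y0 := by
        rw [mul_inv_rev, inv_eq_of_mul_eq_one_right h, inv_eq_of_mul_eq_one_right h2]
  -- `B` has an element of order `8`
  letI : CommGroup B := { (inferInstance : Group B) with
    mul_comm := fun a b => Subtype.ext (hBcomm a a.2 b b.2) }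
  have hker : Nat.card (powMonoidHom 2 : B →* B).ker ≤ 2 := by
    have h2 : Nat.card ((center T).subgroupOf B) = 2 := by
      rw [Nat.card_congr (subgroupOfEquivOfLe hZB).toEquiv, hk']; norm_num
    refine (card_le_of_le (K := (center T).subgroupOf B) fun a ha => hsq a a.2 ?_).trans h2.le
    have : a ^ 2 = 1 := ha
    rw [← pow_two]
    exact congrArg Subtype.val this
  obtain ⟨a, ha⟩ : ∃ a : B, a ^ 4 ≠ 1 := by
    by_contra! h
    have h1 : (powMonoidHom 2 : B →* B).range ≤ (powMonoidHom 2 : B →* B).ker := by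
      rintro _ ⟨a, rfl⟩
      show (a ^ 2) ^ 2 = 1
      rw [← pow_mul]; exact h a
    have h2 := card_le_of_le h1
    have h3 := (powMonoidHom 2 : B →* B).ker.card_mul_index
    rw [index_ker, hBc] at h3
    nlinarith
  have ho : orderOf (a : T) = 8 := by
    rw [orderOf_coe]
    have h1 : orderOf a ∣ 2 ^ 3 := by
      have := orderOf_dvd_natCard a
      rwa [hBc] at this
    obtain ⟨j, hj, hj'⟩ := (Nat.dvd_prime_pow Nat.prime_two).1 h1
    have h2 : ¬ orderOf a ∣ 4 := fun h => ha (orderOf_dvd_iff_pow_eq_one.1 h)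
    rw [hj'] at h2 ⊢
    interval_cases j
    · exact absurd ⟨4, rfl⟩ h2
    · exact absurd ⟨2, rfl⟩ h2
    · exact absurd ⟨1, rfl⟩ h2
    · rfl
  have hzB : zpowers (a : T) = B :=
    eq_of_le_of_card_ge (zpowers_le.2 a.2) (by rw [Nat.card_zpowers, ho, hBc])
  refine hno (zpowers (a : T)) inferInstance ?_
  rw [hzB]
  refine le_antisymm (fun g hg => ?_) fun g hg => mem_centralizer_iff.2 fun b hb => hBcomm b hb g hg
  by_contra hgB
  exact hxZ (hfix g hgB x hxB (mem_centralizer_iff.1 hg x hxB).symm)

/-- The Sylow `2`-subgroups of the central quotient of a group of central type. -/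
theorem two_of_hyp [Finite X] (h : Hyp X) {e : ℕ} (he : e ^ 2 = Nat.card X)
    (hno : ∀ T : Sylow 2 X, Nat.card T = 16 →
      ∀ C : Subgroup T, IsCyclic C → centralizer (C : Set T) ≠ C) : Two X := by
  haveI : Fact (Nat.Prime 2) := ⟨Nat.prime_two⟩
  intro P hP
  by_cases h6 : 2 ^ 6 ∣ Nat.card X
  · have : center P = ⊤ := eq_top_iff.2 fun a _ => mem_center_iff.2 fun b =>
      Subtype.ext (h 2 Nat.prime_two h6 P hP b b.2 a a.2)
    simp [this]
  obtain ⟨T, hT⟩ := hP.exists_le_sylow
  refine (index_center_dvd (inclusion_injective hT)).trans ?_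
  have hc := T.card_eq_multiplicity
  have h0 : Nat.card X ≠ 0 := Nat.card_pos.ne'
  have hk : (Nat.card X).factorization 2 < 6 := by
    by_contra! hk
    exact h6 ((Nat.prime_two.pow_dvd_iff_le_factorization h0).2 hk)
  have hk2 : (Nat.card X).factorization 2 = 2 * e.factorization 2 := by
    rw [← he, Nat.factorization_pow]; simp
  have hd := (center T).index_dvd_card
  rw [hk2] at hc hk
  have : e.factorization 2 ≤ 2 := by omega
  interval_cases e.factorization 2
  · exact hd.trans (by rw [hc]; norm_num)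
  · exact hd.trans (by rw [hc]; norm_num)
  · exact index_center_of_sixteen (by rw [hc]; norm_num) (hno T (by rw [hc]; norm_num))

/-- A normal elementary abelian subgroup `N` with `|N|` dividing `|X : C_X(N)|`. -/
theorem not_card_dvd_index [Finite X] (h : Hyp X) {N : Subgroup X} [N.Normal] {p : ℕ}
    (hp : p.Prime) (hN : N ≠ ⊥) (hc : IsMulCommutative N) (hpow : ∀ a ∈ N, a ^ p = 1)
    (haut : ∀ n : ℕ, Nat.card N = p ^ n → Nat.card (MulAut N) = ∏ i : Fin n, (p ^ n - p ^ (i : ℕ))) :
    ¬ Nat.card N ∣ (centralizer (N : Set X)).index := by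
  intro hd
  haveI := Fact.mk hp
  have hP : IsPGroup p N := fun a => ⟨1, Subtype.ext (by simpa using hpow a a.2)⟩
  obtain ⟨k, hk⟩ := hP.exists_card_eq
  have hk0 : k ≠ 0 := by
    rintro rfl
    exact hN (card_eq_one.1 (by simpa using hk))
  by_cases h6 : p ^ 6 ∣ Nat.card X
  · obtain ⟨T, hT⟩ := hP.exists_le_sylow
    have h1 : (T : Subgroup X) ≤ centralizer (N : Set X) := fun t ht =>
      mem_centralizer_iff.2 fun a ha => h p hp h6 T T.2 a (hT ha) t ht
    exact T.not_dvd_index (((dvd_pow_self p hk0).trans (hk ▸ hd)).trans (index_dvd_of_le h1))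
  have hle : N ≤ centralizer (N : Set X) := fun a ha => mem_centralizer_iff.2 fun b hb =>
    congrArg Subtype.val (hc.is_comm.comm (⟨b, hb⟩ : N) ⟨a, ha⟩)
  have h2 : p ^ (2 * k) ∣ Nat.card X := by
    rw [← (centralizer (N : Set X)).card_mul_index, two_mul, pow_add, ← hk]
    exact mul_dvd_mul (card_dvd_of_le hle) hd
  have hk3 : k < 3 := by
    by_contra! h3
    exact h6 ((pow_dvd_pow p (by omega)).trans h2)
  have h3 : (centralizer (N : Set X)).index ∣ Nat.card (MulAut N) := by
    have : centralizer (N : Set X) = (MulAut.conjNormal (H := N)).ker := by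
      ext g
      rw [MonoidHom.mem_ker, mem_centralizer_iff, MulEquiv.ext_iff]
      refine ⟨fun H a => Subtype.ext ?_, fun H a ha => ?_⟩
      · simp [mul_inv_eq_iff_eq_mul, H a a.2]
      · have := congrArg Subtype.val (H ⟨a, ha⟩)
        simp only [MulAut.conjNormal_apply, MulAut.one_apply, mul_inv_eq_iff_eq_mul] at this
        exact this.symm
    rw [this, index_ker]
    exact card_subgroup_dvd_card _
  have h4 := hd.trans h3
  rw [haut k hk, hk] at h4
  have hp2 := hp.two_le
  interval_cases k
  · exact hk0 rfl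
  · simp only [pow_one, Finset.univ_unique, Fin.default_eq_zero, Fin.val_eq_zero, pow_zero,
      Finset.prod_const, Finset.card_singleton] at h4
    have := Nat.le_of_dvd (by omega) h4
    omega
  · rw [Fin.prod_univ_two] at h4
    simp only [Fin.val_zero, Fin.val_one, pow_zero, pow_one] at h4
    have e1 : p ^ 2 - p = p * (p - 1) := by rw [Nat.mul_sub_one, pow_two]
    rw [e1, pow_two p, mul_left_comm] at h4
    have h5 := Nat.dvd_of_mul_dvd_mul_left hp.pos h4
    rcases (Nat.Prime.dvd_mul hp).1 h5 with h7 | h7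
    · have : p ∣ 1 := (Nat.dvd_sub_iff_right (by nlinarith) (dvd_mul_right p p)).1 h7
      exact hp.one_lt.ne' (Nat.dvd_one.1 this)
    · have := Nat.le_of_dvd (by omega) h7
      omega

end Cfsg.Agent.GagSol
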