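import Mathlib
import Cfsg.Agent.GT.Conj
import Cfsg.Agent.GT.PGroupChain
import Cfsg.Agent.FG.ClassCount
import Cfsg.Agent.Spor.SylowSimple

/-!
# Groups of order dividing `2560` with a self-centralising normal subgroup `2^{1+4}`
-/

set_option autoImplicit false

namespace Cfsg.Agent.Ch.KT

open Subgroup

variable {G : Type*} [Group G] [Finite G]

theorem relIndex_le_card_of_comm {A : Subgroup G} (H : Subgroup G) (g : G)
    (h : ∀ y ∈ H, y * g * y⁻¹ * g⁻¹ ∈ A) : (centralizer {g}).relIndex H ≤ Nat.card A := by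
  rw [← FG.ncard_conj_orbit_subgroup, ← Set.ncard_image_of_injective _ (mul_left_injective g⁻¹)]
  refine Set.ncard_le_ncard (t := (A : Set G)) ?_
  rintro _ ⟨_, ⟨y, hy, rfl⟩, rfl⟩
  exact h y hy

/-- The configuration `2^{1+4}` with an element of order five. -/
structure E32 (A N : Subgroup G) (x : G) : Prop where
  nN : N.Normal
  cN : Nat.card N = 32
  cA : Nat.card A = 2
  le : A ≤ N
  cen : A ≤ center G
  cent : centralizer (N : Set G) ≤ A
  dvd : Nat.card G ∣ 2560
  ord : orderOf x = 5

namespace E32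

variable {A N : Subgroup G} {x : G} (h : E32 A N x)

include h

omit [Finite G] in
theorem nA : A.Normal := ⟨fun a ha g => by
  rwa [mem_center_iff.1 (h.cen ha) g, mul_inv_cancel_right]⟩

omit [Finite G] in
theorem le_cent (S : Set G) : A ≤ centralizer S := h.cen.trans (center_le_centralizer S)

omit [Finite G] in
theorem pN : IsPGroup 2 N := IsPGroup.of_card (n := 5) h.cN

theorem modEq {L : Subgroup G} (hx : ∀ y ∈ L, x * y * x⁻¹ ∈ L) :
    Nat.card L ≡ Nat.card ↥(L ⊓ centralizer {x}) [MOD 5] := by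
  have : Fact (Nat.Prime 5) := ⟨by norm_num⟩
  have := GT.card_modEq_card_inf_centralizer (p := 5) (L := L) (Q := zpowers x)
    (IsPGroup.of_card (n := 1) (by rw [Nat.card_zpowers, h.ord, pow_one]))
    (zpowers_le.2 (GT.mem_normalizer_iff_of_finite.2 hx))
  rwa [zpowers_eq_closure, centralizer_closure] at this

theorem eq_or_eq {L : Subgroup G} (h1 : A ≤ L) (h2 : L ≤ N) (h3 : Nat.card L ≡ 2 [MOD 5]) :
    L = A ∨ L = N := by
  have h4 : Nat.card L ∣ 2 ^ 5 := (card_dvd_of_le h2).trans (h.cN.trans rfl).dvd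
  obtain ⟨k, hk, e⟩ := (Nat.dvd_prime_pow Nat.prime_two).1 h4
  rw [e] at h3
  have : k = 1 ∨ k = 5 := by interval_cases k <;> simp_all [Nat.ModEq]
  rcases this with rfl | rfl
  · exact Or.inl (eq_of_le_of_card_ge h1 (by rw [e, h.cA]; rfl)).symm
  · exact Or.inr (eq_of_le_of_card_ge h2 (by rw [e, h.cN]; rfl))

omit [Finite G] in
theorem not_mem : x ∉ A := fun e => by
  have := orderOf_dvd_natCard A e
  rw [h.ord, h.cA] at this
  omega

omit [Finite G] in
theorem ne_of_not_mem {g : G} (hg : g ∉ A) : N ⊓ centralizer {g} ≠ N := fun e =>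
  hg (h.cent fun _ hn => mem_centralizer_singleton_iff.1 (e.ge hn).2)

theorem inf_eq : N ⊓ centralizer {x} = A := by
  refine (h.eq_or_eq (le_inf h.le (h.le_cent _)) inf_le_left ?_).resolve_right
    (h.ne_of_not_mem h.not_mem)
  refine (h.modEq fun y hy => h.nN.conj_mem y hy x).symm.trans ?_
  rw [h.cN]
  rfl

theorem inv {L : Subgroup G} (h1 : A ≤ L) (h2 : L ≤ N) (hx : ∀ y ∈ L, x * y * x⁻¹ ∈ L) :
    L = A ∨ L = N := by
  refine h.eq_or_eq h1 h2 ((h.modEq hx).trans ?_)
  rw [le_antisymm ((inf_le_inf_right _ h2).trans h.inf_eq.le) (le_inf h1 (h.le_cent _)), h.cA]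

theorem comm_mem {T : Subgroup G} (hT : IsPGroup 2 T) (hx : ∀ t ∈ T, x⁻¹ * t * x ∈ T) {t n : G}
    (ht : t ∈ T) (hn : n ∈ N) : t * n * t⁻¹ * n⁻¹ ∈ A := by
  have := h.nA
  have := h.nN
  let π := QuotientGroup.mk' A
  let L := N ⊓ (centralizer (T.map π : Set (G ⧸ A))).comap π
  have hL : L = N := by
    refine (h.inv (le_inf h.le fun a ha => ?_) inf_le_left fun y hy => ?_).resolve_left fun e => ?_
    · rw [mem_comap, show π a = 1 from (QuotientGroup.eq_one_iff a).2 ha]
      exact one_mem _
    · refine ⟨h.nN.conj_mem y hy.1 x, ?_⟩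
      rintro _ ⟨t, ht, rfl⟩
      have := hy.2 _ ⟨_, hx t ht, rfl⟩
      simp only [map_mul, map_inv] at this ⊢
      calc _ = π x * ((π x)⁻¹ * π t * π x * π y) * (π x)⁻¹ := by group
        _ = _ := by rw [this]; group
    · have : (N.map π).Normal := h.nN.map π (QuotientGroup.mk'_surjective A)
      refine GT.PG.inf_centralizer_ne_bot_of_isPGroup (h.pN.map π) (hT.map π)
        le_normalizer_of_normal (fun e' => ?_) (eq_bot_iff.2 ?_)
      · have := card_le_of_le ((map_eq_bot_iff N).1 e')
        rw [QuotientGroup.ker_mk', h.cN, h.cA] at this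
        omega
      · rintro _ ⟨⟨n, hn, rfl⟩, hc⟩
        exact (QuotientGroup.eq_one_iff n).2 (e.le ⟨hn, hc⟩)
  rw [← QuotientGroup.eq_one_iff]
  have := (hL.ge hn).2 _ ⟨t, ht, rfl⟩
  change π (t * n * t⁻¹ * n⁻¹) = 1
  simp only [map_mul, map_inv]
  rw [this]
  group

theorem relIndex_eq {g : G} (hg : g ∉ A) (hx : x * g = g * x) :
    (centralizer {g}).relIndex N = 16 := by
  have hx' : x ∈ centralizer {g} := mem_centralizer_singleton_iff.2 hx
  have e := (h.inv (L := N ⊓ centralizer {g}) (le_inf h.le (h.le_cent _)) inf_le_left fun y hy =>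
    mem_inf.2 ⟨h.nN.conj_mem y hy.1 x, mul_mem (mul_mem hx' hy.2) (inv_mem hx')⟩).resolve_right
      (h.ne_of_not_mem hg)
  have := FG.card_eq_relIndex_mul_card_inf (centralizer {g}) N
  rw [inf_comm, e, h.cN, h.cA] at this
  omega

theorem card_cent : Nat.card (centralizer ({x} : Set G)) = 10 := by
  have h1 : ¬ 2 ^ 2 ∣ Nat.card (centralizer ({x} : Set G)) := fun e => by
    obtain ⟨T, hT⟩ := Sylow.exists_subgroup_card_pow_prime 2 e
    have h2 : T.map (centralizer ({x} : Set G)).subtype ≤ A := by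
      rintro _ ⟨t, ht, rfl⟩
      by_contra hc
      have hx : x * t = t * x := (mem_centralizer_singleton_iff.1 t.2).symm
      have h3 := relIndex_le_card_of_comm (A := A) N (t : G) fun n hn => by
        have := inv_mem (h.comm_mem (T := T.map (centralizer ({x} : Set G)).subtype)
          ((IsPGroup.of_card hT).map _) (by
            rintro _ ⟨s, hs, rfl⟩
            refine ⟨s, hs, ?_⟩
            change (s : G) = x⁻¹ * s * x
            rw [mul_assoc, mem_centralizer_singleton_iff.1 s.2, inv_mul_cancel_left])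
          ⟨t, ht, rfl⟩ hn)
        simpa [mul_assoc] using this
      rw [h.relIndex_eq (g := t) hc hx, h.cA] at h3
      omega
    have := card_le_of_le h2
    rw [card_subtype, hT, h.cA] at this
    omega
  have h2 : 2 ∣ Nat.card (centralizer ({x} : Set G)) := h.cA ▸ card_dvd_of_le (h.le_cent _)
  have h3 : 5 ∣ Nat.card (centralizer ({x} : Set G)) :=
    h.ord ▸ orderOf_dvd_natCard _ (mem_centralizer_singleton_iff.2 rfl)
  obtain ⟨c, hc⟩ := Nat.Coprime.mul_dvd_of_dvd_of_dvd (by norm_num) h2 h3
  have h4 := (card_subgroup_dvd_card (centralizer ({x} : Set G))).trans h.dvd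
  rw [hc] at h1 h4 ⊢
  obtain ⟨k, -, rfl⟩ := (Nat.dvd_prime_pow Nat.prime_two).1
    (Nat.dvd_of_mul_dvd_mul_left (by norm_num) (show 2 * 5 * c ∣ 2 * 5 * 2 ^ 8 from h4))
  rcases k with _ | k
  · rfl
  · exact absurd ⟨5 * 2 ^ k, by ring⟩ h1

theorem card_le_of_normal {S : Subgroup G} [hS : S.Normal] (h2 : IsPGroup 2 S) :
    Nat.card S ≤ 64 := by
  obtain ⟨n, hn, hnA⟩ : ∃ n ∈ N, n ∉ A := SetLike.not_le_iff_exists.1 fun e => by
    have := card_le_of_le e
    rw [h.cN, h.cA] at this
    omega
  have := Fintype.ofFinite (zpowers x)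
  let D := ⨅ y : zpowers x, centralizer {(y : G) * n * (y : G)⁻¹}
  have h1 : D.relIndex S ≤ 32 := by
    refine (relIndex_iInf_le _).trans ((Finset.prod_le_pow_card _ _ 2 fun y _ => ?_).trans ?_)
    · exact h.cA ▸ relIndex_le_card_of_comm S _ fun s hs => h.comm_mem h2
        (fun t ht => by simpa using hS.conj_mem t ht x⁻¹) hs (h.nN.conj_mem n hn _)
    · rw [Finset.card_univ, ← Nat.card_eq_fintype_card, Nat.card_zpowers, h.ord]; rfl
  have h3 : N ⊓ centralizer (D : Set G) = N := by
    refine (h.inv (le_inf h.le (h.le_cent _)) inf_le_left fun y hy =>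
      ⟨h.nN.conj_mem y hy.1 x, fun d hd => ?_⟩).resolve_left fun e => hnA (e.le ⟨hn, fun d hd => ?_⟩)
    · have h4 : x⁻¹ * d * x ∈ D := mem_iInf.2 fun z => mem_centralizer_singleton_iff.2 (by
        have := mem_centralizer_singleton_iff.1
          (mem_iInf.1 hd (⟨x, mem_zpowers x⟩ * z : zpowers x))
        simp only [coe_mul] at this
        calc _ = x⁻¹ * (d * (x * z * n * (x * z)⁻¹)) * x := by group
          _ = _ := by rw [this]; group)
      have := hy.2 _ h4
      calc _ = x * (x⁻¹ * d * x * y) * x⁻¹ := by group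
        _ = _ := by rw [this]; group
    · simpa using mem_centralizer_singleton_iff.1 (mem_iInf.1 hd 1)
  have h4 : D ≤ A := (le_centralizer_iff.1 (h3.ge.trans inf_le_right)).trans h.cent
  have h5 := card_le_of_le (inf_le_left.trans h4 : D ⊓ S ≤ A)
  rw [FG.card_eq_relIndex_mul_card_inf D S]
  exact Nat.mul_le_mul h1 (h.cA ▸ h5)

theorem card_le : Nat.card G ≤ 640 := by
  have : Fact (Nat.Prime 5) := ⟨by norm_num⟩
  have h5 : Nat.card (zpowers x) = 5 := by rw [Nat.card_zpowers, h.ord]
  obtain ⟨P, hP⟩ := (IsPGroup.of_card (n := 1) (h5.trans (pow_one 5).symm)).exists_le_sylow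
  have hP' : (P : Subgroup G) = zpowers x := by
    obtain ⟨k, hk⟩ := P.isPGroup'.exists_card_eq
    have h1 : k ≤ 1 := by
      by_contra hc
      have := ((pow_dvd_pow 5 (show 2 ≤ k by omega)).trans
        (hk ▸ card_subgroup_dvd_card (P : Subgroup G))).trans h.dvd
      omega
    exact (eq_of_le_of_card_ge hP (by
      rw [hk, h5]; simpa using Nat.pow_le_pow_right (show 0 < 5 by norm_num) h1)).symm
  have hC : Nat.card (centralizer ((P : Subgroup G) : Set G)) = 10 := by
    rw [hP', zpowers_eq_closure, centralizer_closure, h.card_cent]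
  have h1 := card_dvd_of_injective _
    (QuotientGroup.kerLift_injective (P : Subgroup G).normalizerMonoidHom)
  have : IsCyclic (P : Subgroup G) := hP' ▸ inferInstance
  rw [normalizerMonoidHom_ker, ← index, ← relIndex, IsCyclic.card_mulAut, hP', h5, ← hP'] at h1
  have h2 := FG.card_eq_relIndex_mul_card_inf (centralizer ((P : Subgroup G) : Set G))
    (normalizer ((P : Subgroup G) : Set G))
  rw [inf_of_le_left (centralizer_le_normalizer _), hC] at h2
  have h3 := Nat.le_of_dvd (by decide) h1
  have h4 := (normalizer ((P : Subgroup G) : Set G)).card_mul_index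
  have h6 := card_sylow_modEq_one 5 G
  rw [P.card_eq_index_normalizer] at h6
  change (normalizer ((P : Subgroup G) : Set G)).index ≡ 1 [MOD 5] at h6
  have h7 := h.dvd
  rw [← h4, h2] at h7 ⊢
  have h8 : (normalizer ((P : Subgroup G) : Set G)).index ∣ 2 ^ 8 :=
    Nat.dvd_of_mul_dvd_mul_left (show 0 < 10 by norm_num)
      ((Dvd.intro_left _ (mul_assoc _ _ _).symm).trans h7)
  obtain ⟨k, hk, e⟩ := (Nat.dvd_prime_pow Nat.prime_two).1 h8
  have h9 : Nat.totient 5 = 4 := by decide
  rw [e] at h4 h6 h7 ⊢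
  have : k ≤ 4 ∨ k = 8 := by interval_cases k <;> simp_all [Nat.ModEq]
  rcases this with hk | rfl
  · have := Nat.pow_le_pow_right two_pos hk
    nlinarith
  · exfalso
    have h10 := Nat.le_of_dvd (by norm_num) h7
    have h11 : (centralizer ((P : Subgroup G) : Set G)).relIndex
        (normalizer ((P : Subgroup G) : Set G)) = 1 := by
      have := Nat.card_pos (α := normalizer ((P : Subgroup G) : Set G))
      omega
    have h12 := (MonoidHom.ker_transferSylow_isComplement' P (relIndex_eq_one.1 h11)).card_mul_card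
    rw [show Nat.card (P : Subgroup G) = 5 from hP' ▸ h5, ← h4, h2, h11] at h12
    have := h.card_le_of_normal (S := (MonoidHom.transferSylow P (relIndex_eq_one.1 h11)).ker)
      (IsPGroup.of_card (n := 9) (by omega))
    omega

theorem ten_le {g : G} (hg : g ∉ A) : 10 ≤ (centralizer ({g} : Set G)).index := by
  have : Fact (Nat.Prime 5) := ⟨by norm_num⟩
  have := h.nN
  by_cases h5 : 5 ∣ Nat.card (centralizer ({g} : Set G))
  · obtain ⟨y, hy⟩ := exists_prime_orderOf_dvd_card' 5 h5
    have h1 : E32 A N (y : G) := { h with ord := by rwa [orderOf_coe] }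
    have := FG.relIndex_le_index (centralizer {g}) N
    rw [h1.relIndex_eq hg (mem_centralizer_singleton_iff.1 y.2)] at this
    omega
  · have h1 : 5 ∣ (centralizer ({g} : Set G)).index := by
      have := h.ord ▸ orderOf_dvd_natCard x
      rw [← (centralizer ({g} : Set G)).card_mul_index] at this
      exact ((Nat.Prime.dvd_mul (by norm_num)).1 this).resolve_left h5
    have h2 : 2 ∣ (centralizer ({g} : Set G)).index := by_contra fun e =>
      h.ne_of_not_mem hg (inf_of_le_left (Spor.SylS.le_of_normal_of_index h.pN e))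
    exact Nat.le_of_dvd (Nat.pos_of_ne_zero index_ne_zero_of_finite)
      (Nat.Coprime.mul_dvd_of_dvd_of_dvd (by norm_num) h2 h1)

theorem k_le : 10 * Nat.card (ConjClasses G) ≤ Nat.card G + 18 := by
  classical
  have := Fintype.ofFinite G
  have hA : (Finset.univ.filter fun g : G => g ∈ A).card = 2 := by
    rw [← h.cA, Nat.card_eq_fintype_card, Fintype.card_subtype]
  have hA' := Finset.card_filter_add_card_filter_not (s := Finset.univ) fun g : G => g ∈ A
  rw [hA, Finset.card_univ, ← Nat.card_eq_fintype_card] at hA'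
  have h1 := congrArg (10 * ·) (FG.sum_card_centralizer (G := G))
  simp only [Finset.mul_sum] at h1
  rw [← Finset.sum_filter_add_sum_filter_not _ (fun g : G => g ∈ A)] at h1
  have h2 := Finset.sum_le_card_nsmul (Finset.univ.filter fun g : G => g ∈ A)
    (fun g => 10 * Nat.card (centralizer ({g} : Set G))) (10 * Nat.card G) fun g _ =>
      Nat.mul_le_mul_left _ (card_le_card_group _)
  have h3 := Finset.sum_le_card_nsmul (Finset.univ.filter fun g : G => ¬ g ∈ A)
    (fun g => 10 * Nat.card (centralizer ({g} : Set G))) (Nat.card G) fun g hg => by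
      rw [← (centralizer ({g} : Set G)).index_mul_card]
      exact Nat.mul_le_mul_right _ (h.ten_le (Finset.mem_filter.1 hg).2)
  rw [smul_eq_mul] at h2 h3
  rw [hA] at h2
  refine Nat.le_of_mul_le_mul_right ?_ (Nat.card_pos (α := G))
  nlinarith

end E32

end Cfsg.Agent.Ch.KT
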