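import Mathlib
import Cfsg.Agent.Perm.LinRegSolv
import Cfsg.Agent.Perm.LinRegStmt
import Cfsg.Agent.GT.NearField
import Cfsg.Agent.FG.ClassCount

/-!
# Class numbers of one-dimensional semilinear groups transitive on non-zero vectors
-/

set_option autoImplicit false

namespace Cfsg.Agent.Ch.KT

open Subgroup GT.Frob Perm

/-- Counting commuting pairs over a subgroup with small centralisers outside. -/
theorem k_mul_index_le {G : Type*} [Group G] [Finite G] (B : Subgroup G) {f M : ℕ}
    (hf : B.index = f + 1) (hM : ∀ g ∉ B, Nat.card ↥(B ⊓ centralizer {g}) ≤ M) :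
    Nat.card (ConjClasses G) * (f + 1) ≤ Nat.card B + f * (f + 2) * M := by
  classical
  have := Fintype.ofFinite G
  have hB : (Finset.univ.filter fun x : G => x ∈ B).card = Nat.card B := by
    rw [Nat.card_eq_fintype_card, Fintype.card_subtype]
  have hG : Nat.card G = Nat.card B * (f + 1) := by rw [← hf, card_mul_index]
  have hB' : (Finset.univ.filter fun x : G => ¬ x ∈ B).card = Nat.card B * f := by
    have := Finset.card_filter_add_card_filter_not (s := Finset.univ) fun x : G => x ∈ B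
    rw [hB, Finset.card_univ, ← Nat.card_eq_fintype_card, hG, mul_add] at this
    omega
  have h1 := FG.sum_card_centralizer (G := G)
  rw [← Finset.sum_filter_add_sum_filter_not _ (fun x : G => x ∈ B),
    ← FG.sum_card_inf_centralizer_swap,
    ← Finset.sum_filter_add_sum_filter_not _ (fun x : G => x ∈ B)] at h1
  have h2 := Finset.sum_le_card_nsmul (Finset.univ.filter fun x : G => x ∈ B)
    (fun x => Nat.card ↥(B ⊓ centralizer {x})) (Nat.card B) fun x _ => card_le_of_le inf_le_left
  have h3 := Finset.sum_le_card_nsmul (Finset.univ.filter fun x : G => ¬ x ∈ B)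
    (fun x => Nat.card ↥(B ⊓ centralizer {x})) M fun x hx => hM x (Finset.mem_filter.1 hx).2
  have h4 := Finset.sum_le_card_nsmul (Finset.univ.filter fun x : G => ¬ x ∈ B)
    (fun x => Nat.card (centralizer ({x} : Set G))) ((f + 1) * M) fun x hx =>
      (FG.card_le_index_mul_card_inf B _).trans
        (hf ▸ Nat.mul_le_mul_left _ (hM x (Finset.mem_filter.1 hx).2))
  rw [hB, smul_eq_mul] at h2
  rw [hB', smul_eq_mul] at h3 h4
  refine Nat.le_of_mul_le_mul_left ?_ (Nat.card_pos (α := B))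
  rw [hG] at h1
  nlinarith

theorem two_pow_aux {t : ℕ} (ht : 3 ≤ t) : 3 * t + 2 < 2 * 2 ^ t := by
  induction t, ht using Nat.le_induction with
  | base => norm_num
  | succ t _ ih => rw [pow_succ]; omega

theorem three_pow_aux {t : ℕ} (ht : 2 ≤ t) : 2 * t + 1 < 3 ^ t := by
  induction t, ht using Nat.le_induction with
  | base => norm_num
  | succ t _ ih => rw [pow_succ]; omega

theorem arith_one {p m o e : ℕ} (hp : p.Prime) (hm : 0 < m) (ho : 1 ≤ o) (he : e ≤ m * (o + 1))
    (hpo : ¬ p ∣ o + 1) : e + 1 ≤ p ^ (m * o) ∧ (e + 1 = p ^ (m * o) →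
      p ^ (m * (o + 1)) = 8 ∧ e = 3 ∨ p ^ (m * (o + 1)) = 9 ∧ e = 2) := by
  rcases hp.eq_two_or_odd' with rfl | hodd
  · have h2 : 2 ≤ o := by omega
    have h3 : 2 * m ≤ m * o := by nlinarith
    rcases (show m * o = 2 ∨ 3 ≤ m * o by omega) with h | h
    · obtain rfl : m = 1 := by omega
      obtain rfl : o = 2 := by omega
      norm_num at he ⊢
      omega
    · have := two_pow_aux h
      rw [mul_add] at he
      omega
  · have h3 : 3 ≤ p := by have := hp.two_le; rcases hodd with ⟨k, hk⟩; omega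
    have h4 : m ≤ m * o := Nat.le_mul_of_pos_right m ho
    have h5 := Nat.pow_le_pow_left h3 (m * o)
    rw [mul_add] at he
    rcases (show m * o = 1 ∨ 2 ≤ m * o by omega) with h | h
    · obtain rfl : m = 1 := by omega
      obtain rfl : o = 1 := by omega
      norm_num at he ⊢
      refine ⟨by omega, fun e => Or.inr ?_⟩
      obtain rfl : p = 3 := by omega
      omega
    · have := three_pow_aux h
      omega

theorem arith_two {k h f q b s : ℕ} (hf : 0 < f) (hs : 0 < s) (hq : 0 < q) (hb : b ≤ q - 1)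
    (h1 : b * (f + 1) = (q - 1) * h) (h2 : k * (f + 1) ≤ b + f * (f + 2) * (s - 1))
    (h3 : (f + 2) * s ≤ q) : k + h ≤ q ∧ (k + h = q → h = f + 1 ∧ (f + 2) * s = q) := by
  obtain ⟨s, rfl⟩ : ∃ t, s = t + 1 := ⟨s - 1, by omega⟩
  obtain ⟨q, rfl⟩ : ∃ t, q = t + 1 := ⟨q - 1, by omega⟩
  simp only [Nat.add_sub_cancel] at *
  have hq' : 0 < q := by nlinarith
  have h4 : h ≤ f + 1 := Nat.le_of_mul_le_mul_left (by nlinarith) hq'
  obtain ⟨d, hd⟩ := Nat.exists_eq_add_of_le h4
  obtain ⟨c, hc⟩ := Nat.exists_eq_add_of_le h3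
  have h5 : (k + h) * (f + 1) + d * (f + 1) + f * c + (q - b) ≤ (q + 1) * (f + 1) := by
    obtain ⟨u, rfl⟩ := Nat.exists_eq_add_of_le hb
    rw [Nat.add_sub_cancel_left]
    nlinarith
  refine ⟨Nat.le_of_mul_le_mul_right (c := f + 1) (by omega) f.succ_pos, fun e => ?_⟩
  rw [e] at h5
  have h6 : d * (f + 1) = 0 := by omega
  have h7 : f * c = 0 := by omega
  have h8 : d = 0 := by simpa using h6
  have h9 : c = 0 := (mul_eq_zero.1 h7).resolve_left hf.ne'
  omega

/-- The fixed field of a field automorphism. -/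
theorem exists_fixed {K : Type*} [Field K] [Finite K] (σ : K ≃+* K) :
    ∃ F : Subfield K, Nat.card K = Nat.card F ^ orderOf σ ∧ ∀ c, σ c = c → c ∈ F := by
  classical
  have : Finite (K ≃+* K) := Finite.of_injective (fun e : K ≃+* K => (e : K → K))
    DFunLike.coe_injective
  have := Fintype.ofFinite (zpowers σ)
  refine ⟨FixedPoints.subfield (zpowers σ) K, ?_, fun c hc g => ?_⟩
  · rw [Module.natCard_eq_pow_finrank (K := FixedPoints.subfield (zpowers σ) K),
      FixedPoints.finrank_eq_card, ← Nat.card_eq_fintype_card, Nat.card_zpowers]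
  · exact (zpowers_le (H := MulAction.stabilizer (K ≃+* K) c) (g := σ)).2 hc g.2

variable {p : ℕ} [hp : Fact p.Prime] {V : Type*} [AddCommGroup V] [Module (ZMod p) V] [Finite V]
  [Nontrivial V] {G : Type*} [Group G] [Finite G] {ρ : G →* (V ≃ₗ[ZMod p] V)}

omit [Finite V] in
theorem charP_of_module (K : Type*) [Field K] [Module K V] : CharP K p := by
  obtain ⟨v, hv⟩ := exists_ne (0 : V)
  refine (CharP.charP_iff_prime_eq_zero hp.out).2 ((smul_eq_zero_iff_left hv).1 ?_)
  rw [Nat.cast_smul_eq_nsmul]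
  exact nsmul_eq_zero_of_zmod v

/-- The conclusion of the theorem. -/
def Concl (V G : Type*) [Group G] (h : ℕ) : Prop :=
  Nat.card (ConjClasses G) + h ≤ Nat.card V ∧ (Nat.card (ConjClasses G) + h = Nat.card V →
    IsCyclic G ∨ (Nat.card V = 8 ∧ Nat.card G = 21) ∨ (Nat.card V = 9 ∧ Nat.card G = 16))

theorem case_one (hρ : Function.Injective ρ) (hG : ¬ p ∣ Nat.card G)
    (htr : ∀ v w : V, v ≠ 0 → w ≠ 0 → ∃ g : G, ρ g v = w) {A : Subgroup G} [A.Normal]
    [IsMulCommutative A] (hI : IrrOn ρ A) {h : ℕ} (hh : Nat.card G = (Nat.card V - 1) * h) :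
    Concl V G h := by
  let _ := DistribMulAction.compHom V ρ
  have : FaithfulSMul G V := ⟨fun h => hρ (LinearEquiv.ext h)⟩
  set B := centralizer (A : Set G) with hBA
  have hcy : IsCyclic B := hI.isCyclic_centralizer hρ
  have hAB : A ≤ B := le_centralizer A
  have hB : centralizer (B : Set G) = B := le_antisymm (centralizer_le hAB) (le_centralizer B)
  obtain ⟨K, _, _, _, ⟨D⟩⟩ := exists_fieldData (V := V) htr B
  have h1 : Module.finrank K V = 1 := D.finrank_eq_one fun W hW => by
    rcases hI.mono hAB (AddSubgroup.toZModSubmodule p W) hW with e | e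
    · exact Or.inl ((AddSubgroup.toZModSubmodule p).injective (e.trans (OrderIso.map_bot _).symm))
    · exact Or.inr ((AddSubgroup.toZModSubmodule p).injective (e.trans (OrderIso.map_top _).symm))
  have hV : Nat.card V = Nat.card K := by
    rw [Module.natCard_eq_pow_finrank (K := K), h1, pow_one]
  have := charP_of_module (p := p) (V := V) K
  obtain ⟨⟨n, hn⟩, -, hK⟩ := FiniteField.card K p
  rw [← Nat.card_eq_fintype_card, PNat.mk_coe] at hK
  have h2 : 1 < Nat.card K := Finite.one_lt_card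
  have hb : Nat.card B ≤ Nat.card K - 1 := Nat.le_of_dvd (by omega) D.card_dvd
  have he := D.index_centralizer_dvd
  rw [hB, show Nat.card (K ≃+* K) = n from Cl.Aut.card_ringAut hK] at he
  have hker : D.σ.ker = B := D.ker_σ.trans hB
  obtain ⟨f, hf⟩ : ∃ f, B.index = f + 1 := ⟨B.index - 1, by
    have := B.index_ne_zero_of_finite; omega⟩
  have hG' : Nat.card B * (f + 1) = (Nat.card K - 1) * h := by rw [← hV, ← hh, ← hf, card_mul_index]
  unfold Concl
  rw [hV]
  rcases Nat.eq_zero_or_pos f with rfl | hf0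
  · have h3 : B = ⊤ := index_eq_one.1 hf
    have h4 := FG.card_conjClasses_le_card (G := G)
    have h5 : h ≤ 1 := Nat.le_of_mul_le_mul_left (by omega) (show 0 < Nat.card K - 1 by omega)
    rw [h3, card_top] at hb
    refine ⟨by omega, fun _ => Or.inl ?_⟩
    exact isCyclic_of_surjective B.subtype fun g => ⟨⟨g, h3.ge trivial⟩, rfl⟩
  obtain ⟨g, hg, hmax⟩ := Set.exists_max_image {g : G | g ∉ B}
    (fun g => Nat.card ↥(B ⊓ centralizer {g})) (Set.toFinite _) (by
      by_contra hc
      have : B = ⊤ := eq_top_iff.2 fun x _ => by_contra fun hx => hc ⟨x, hx⟩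
      rw [this, index_top] at hf
      omega)
  obtain ⟨F, hF, hF'⟩ := exists_fixed (D.σ g)
  have hc : Nat.card ↥(B ⊓ centralizer {g}) ≤ Nat.card F - 1 := by
    rw [← Nat.card_units]
    have hm : ∀ b : ↥(B ⊓ centralizer {g}), (D.α (inclusion inf_le_left b) : K) ∈ F := fun b => by
      obtain ⟨v, hv⟩ := exists_ne (0 : V)
      refine hF' _ (smul_left_injective K ((smul_ne_zero_iff_ne g).2 hv) ?_)
      simp only
      rw [← D.semi, ← D.smul_eq, ← D.smul_eq, ← mul_smul, ← mul_smul]
      exact congrArg (· • v) (mem_centralizer_singleton_iff.1 b.2.2).symm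
    let β : ↥(B ⊓ centralizer {g}) →* F :=
      ((Units.coeHom K).comp (D.α.comp (inclusion inf_le_left))).codRestrict F hm
    refine Nat.card_le_card_of_injective β.toHomUnits fun a b e => ?_
    exact inclusion_injective inf_le_left (D.α_injective (Units.ext
      (congrArg Subtype.val (congrArg Units.val e))))
  have ho : orderOf (D.σ g) ∣ f + 1 := by
    rw [← hf, ← congrArg index hker, index_ker]
    exact orderOf_dvd_natCard D.σ.range ⟨g, rfl⟩
  have ho1 : orderOf (D.σ g) ≠ 1 := fun e => hg (hker ▸ orderOf_eq_one_iff.1 e)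
  obtain ⟨o, ho2⟩ : ∃ o, orderOf (D.σ g) = o + 1 := ⟨orderOf (D.σ g) - 1, by
    have := Nat.pos_of_dvd_of_pos ho f.succ_pos; omega⟩
  rw [ho2] at hF ho ho1
  obtain ⟨m, -, hm⟩ := (Nat.dvd_prime_pow hp.out).1
    (hK ▸ hF ▸ dvd_pow_self _ o.succ_ne_zero : Nat.card F ∣ p ^ n)
  have hmn : n = m * (o + 1) := by
    rw [hK, hm, ← pow_mul] at hF
    exact Nat.pow_right_injective hp.out.two_le hF
  have hm0 : 0 < m := Nat.pos_of_ne_zero fun e => by rw [e] at hmn; omega
  obtain ⟨a1, a2⟩ := arith_one (e := f + 1) hp.out hm0 (show 1 ≤ o by omega)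
    (hmn ▸ hf ▸ Nat.le_of_dvd hn he) fun e => hG ((e.trans ho).trans (hf ▸ B.index_dvd_card))
  have hq : Nat.card K = p ^ (m * o) * p ^ m := by rw [hK, hmn, ← pow_add, mul_add, mul_one]
  have hs := pow_pos hp.out.pos m
  obtain ⟨b1, b2⟩ := arith_two hf0 hs (by omega) hb hG'
    (k_mul_index_le B hf fun x hx => (hmax x hx).trans (hm ▸ hc))
    (hq ▸ Nat.mul_le_mul_right _ a1)
  refine ⟨b1, fun e => Or.inr ?_⟩
  obtain ⟨b3, b4⟩ := b2 e
  rw [hh, hV, hK, hmn, b3]
  rcases a2 (Nat.eq_of_mul_eq_mul_right hs (b4.trans hq)) with ⟨e1, e2⟩ | ⟨e1, e2⟩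
  · rw [e1, e2]; simp
  · rw [e1, e2]; simp

end Cfsg.Agent.Ch.KT
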