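import Mathlib
import Cfsg.Agent.Cl.PSL2Dickson
import Cfsg.Agent.Cl.PSL2Sub
import Cfsg.Agent.FG.ClassCount
import Cfsg.Agent.S4198

/-!
# Two-dimensional linear groups of order prime to the characteristic
-/

set_option autoImplicit false

namespace Cfsg.Agent.Ch.KT

open Subgroup Matrix Cl.L2
open scoped MatrixGroups

theorem card_alt (n : ℕ) : 2 * Nat.card (alternatingGroup (Fin (n + 2))) = (n + 2).factorial := by
  rw [Nat.card_eq_fintype_card, two_mul_card_alternatingGroup, Fintype.card_perm, Fintype.card_fin]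

theorem card_alt_four : Nat.card (alternatingGroup (Fin 4)) = 12 := by
  have : 2 * Nat.card (alternatingGroup (Fin 4)) = 24 := card_alt 2
  omega

theorem card_alt_five : Nat.card (alternatingGroup (Fin 5)) = 60 := by
  have : 2 * Nat.card (alternatingGroup (Fin 5)) = 120 := card_alt 3
  omega

theorem card_perm_four : Nat.card (Equiv.Perm (Fin 4)) = 24 := by
  rw [Nat.card_eq_fintype_card, Fintype.card_perm, Fintype.card_fin]; rfl

theorem k_perm_four : Nat.card (ConjClasses (Equiv.Perm (Fin 4))) = 5 := by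
  have h := card_comm_eq_card_conjClasses_mul_card (Equiv.Perm (Fin 4))
  have h1 : Nat.card {p : Equiv.Perm (Fin 4) × Equiv.Perm (Fin 4) // Commute p.1 p.2} = 120 := by
    show Nat.card {p : Equiv.Perm (Fin 4) × Equiv.Perm (Fin 4) // p.1 * p.2 = p.2 * p.1} = 120
    rw [Nat.card_eq_fintype_card, Fintype.card_subtype]
    decide +kernel
  rw [h1, card_perm_four] at h
  omega

theorem k_alt_four : Nat.card (ConjClasses (alternatingGroup (Fin 4))) = 4 := by
  have h := card_comm_eq_card_conjClasses_mul_card (alternatingGroup (Fin 4))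
  have h1 : Nat.card {p : alternatingGroup (Fin 4) × alternatingGroup (Fin 4) //
      Commute p.1 p.2} = 48 := by
    show Nat.card {p : alternatingGroup (Fin 4) × alternatingGroup (Fin 4) //
      p.1 * p.2 = p.2 * p.1} = 48
    rw [Nat.card_eq_fintype_card, Fintype.card_subtype]
    decide +kernel
  rw [h1, card_alt_four] at h
  omega

theorem k_alt_five : Nat.card (ConjClasses (alternatingGroup (Fin 5))) ≤ 7 := by
  have := S4198.result 5 le_rfl
  omega

/-- Dickson's theorem for a faithful two-dimensional group of order prime to the characteristic. -/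
theorem two_dim {K W C : Type*} [Field K] [Finite K] [AddCommGroup W] [Module K W] [Group C]
    [Finite C] [DistribMulAction C W] [FaithfulSMul C W] (p : ℕ) [Fact p.Prime] [CharP K p]
    (hp : ¬ p ∣ Nat.card C) (hlin : ∀ (g : C) (c : K) (v : W), g • c • v = c • g • v)
    (h2 : Module.finrank K W = 2) :
    (∃ L : Submodule K W, L ≠ ⊥ ∧ L ≠ ⊤ ∧ ∀ (g : C), ∀ v ∈ L, g • v ∈ L) ∨
    (∃ B : Subgroup C, IsMulCommutative B ∧ B.index ≤ 2) ∨
    ∃ z t : ℕ, z ∣ Nat.card K - 1 ∧ Nat.card C = z * t ∧
      ((t = 12 ∨ t = 24) ∧ Nat.card (ConjClasses C) ≤ z * 5 ∨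
        t = 60 ∧ Nat.card (ConjClasses C) ≤ z * 7) := by
  classical
  have : Module.Finite K W := Module.finite_of_finrank_eq_succ h2
  let b := Module.finBasisOfFinrankEq K W h2
  let T : C →* Module.End K W :=
    { toFun := fun g => { toFun := fun v => g • v, map_add' := smul_add g, map_smul' := hlin g }
      map_one' := LinearMap.ext fun v => one_smul C v
      map_mul' := fun g h => LinearMap.ext fun v => mul_smul g h v }
  let M : C →* M2 K := (LinearMap.toMatrixAlgEquiv b).toMonoidHom.comp T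
  have hM : ∀ g, M g = LinearMap.toMatrix b b (T g) := fun _ => rfl
  have hinj : Function.Injective M := fun g h e =>
    eq_of_smul_eq_smul (α := W) fun v => DFunLike.congr_fun ((LinearMap.toMatrix b b).injective e) v
  have hdet : ∀ g, (M g).det ≠ 0 := fun g =>
    ((Matrix.isUnit_iff_isUnit_det _).1 ((Group.isUnit g).map M)).ne_zero
  let π : C →* PGL(2, K) := MonoidHom.mk' (fun g => pm (M g)) fun g h => by
    rw [map_mul, pm_mul (hdet g) (hdet h)]
  have hπ : ∀ g, π g = pm (M g) := fun _ => rfl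
  have hsc : ∀ g : π.ker, M g = M g 0 0 • (1 : M2 K) := fun g => by
    obtain ⟨c, hc⟩ := (pm_eq_one_iff' (hdet g)).1 g.2
    rw [hc]; simp
  let α : π.ker →* K :=
    { toFun := fun g => M g 0 0
      map_one' := by simp
      map_mul' := fun g h => by
        rw [coe_mul, map_mul, hsc g, smul_mul_assoc, one_mul]; simp }
  have hα : Nat.card π.ker ∣ Nat.card K - 1 := by
    rw [← Nat.card_units]
    refine card_dvd_of_injective α.toHomUnits fun g h e => Subtype.ext (hinj ?_)
    rw [hsc g, hsc h]
    exact congrArg (· • (1 : M2 K)) (congrArg Units.val e)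
  have hcard : Nat.card C = Nat.card π.ker * Nat.card π.range := by
    rw [← index_ker, card_mul_index]
  have hk := (FG.card_conjClasses_le_ker_mul_range π).trans
    (Nat.mul_le_mul_right _ FG.card_conjClasses_le_card)
  rcases dickson_regular π.range (fun h hh h1 ht => by
    obtain ⟨x, hx⟩ := exists_mem_uni ht
    exact hp (orderOf_of_mem_uni p hx h1 ▸ (orderOf_dvd_natCard _ hh).trans (card_range_dvd π)))
    with ⟨x, hx⟩ | ⟨g, -, ht, hg⟩ | ⟨⟨e⟩⟩ | ⟨⟨e⟩⟩ | ⟨⟨e⟩⟩
  · left
    induction x using Projectivization.ind with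
    | h v hv =>
    have hw : b.equivFun.symm v ≠ 0 := b.equivFun.symm.map_ne_zero_iff.2 hv
    refine ⟨K ∙ b.equivFun.symm v, mt Submodule.span_singleton_eq_bot.1 hw, fun e => ?_,
      fun g w hw => ?_⟩
    · have := finrank_span_singleton (K := K) hw
      rw [e, finrank_top] at this
      omega
    · obtain ⟨c, rfl⟩ := Submodule.mem_span_singleton.1 hw
      rw [hlin]
      refine Submodule.smul_mem _ _ ?_
      have h1 := hx _ ⟨g, rfl⟩
      rw [hπ, pm_smul_mk (hdet g), Projectivization.mk_eq_mk_iff'] at h1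
      obtain ⟨a, ha⟩ := h1
      refine Submodule.mem_span_singleton.2 ⟨a, b.equivFun.injective ?_⟩
      have h3 := LinearMap.toMatrix_mulVec_repr b b (T g) (b.equivFun.symm v)
      rw [← hM, ← b.equivFun_apply, LinearEquiv.apply_symm_apply, ← ha] at h3
      rw [map_smul, LinearEquiv.apply_symm_apply, h3]
      rfl
  · refine Or.inr (Or.inl ⟨(tor g).comap π, ⟨⟨fun x y => Subtype.ext (hinj ?_)⟩⟩, ?_⟩)
    · rw [coe_mul, coe_mul, map_mul, map_mul]
      exact (pm_mem_tor (hdet _) (hdet _)).1 (mem_tor_of_mem_tor (ne_one_of_tau ht) x.2 y.2)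
    · rw [index_comap]
      exact (relIndex_le_of_le_right hg (by rw [relIndex_tor_ntor ht]; exact two_ne_zero)).trans
        (relIndex_tor_ntor ht).le
  · rw [FG.card_conjClasses_congr e, k_alt_four] at hk
    rw [Nat.card_congr e.toEquiv, card_alt_four] at hcard
    exact Or.inr (Or.inr ⟨_, _, hα, hcard, Or.inl ⟨Or.inl rfl, by omega⟩⟩)
  · rw [FG.card_conjClasses_congr e, k_perm_four] at hk
    rw [Nat.card_congr e.toEquiv, card_perm_four] at hcard
    exact Or.inr (Or.inr ⟨_, _, hα, hcard, Or.inl ⟨Or.inr rfl, hk⟩⟩)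
  · rw [FG.card_conjClasses_congr e] at hk
    rw [Nat.card_congr e.toEquiv, card_alt_five] at hcard
    exact Or.inr (Or.inr ⟨_, _, hα, hcard, Or.inr ⟨rfl,
      hk.trans (Nat.mul_le_mul_left _ k_alt_five)⟩⟩)

end Cfsg.Agent.Ch.KT
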