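import Mathlib
import Cfsg.Agent.Ch.AbelianQuot
import Cfsg.Agent.Ch.Gallagher
import Cfsg.Agent.Ch.Extension

/-!
Characters of an abelian group that are small off the identity are a multiple of the regular
character up to one linear character; homogeneous characters over an extendible character;
basic facts on fully ramified characters.
-/

set_option autoImplicit false
set_option linter.style.haveILetI false
set_option linter.unusedSectionVars false

open Function Cfsg ComplexConjugate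

namespace Cfsg.Agent.Ch

/-- A family of naturals with small variance is constant up to one entry. -/
theorem nat_near_const {ι : Type*} [Fintype ι] [DecidableEq ι] [Nonempty ι] (m : ι → ℕ)
    (h : Fintype.card ι * ∑ i, m i ^ 2 + 1 ≤ (∑ i, m i) ^ 2 + Fintype.card ι) :
    ∃ a : ℕ, (∀ i, m i = a) ∨ (∃ j, ∀ i, m i = a + if i = j then 1 else 0) ∨
      (∃ j, ∀ i, m i + (if i = j then 1 else 0) = a) := by
  classical
  obtain ⟨i0, -, hi0⟩ := Finset.exists_min_image Finset.univ m Finset.univ_nonempty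
  set a := m i0 with ha
  obtain ⟨d, hd⟩ : ∃ d : ι → ℕ, ∀ i, m i = a + d i :=
    ⟨fun i => m i - a, fun i => by have := hi0 i (Finset.mem_univ _); simp only; omega⟩
  have hd0 : d i0 = 0 := by have := hd i0; omega
  set n := Fintype.card ι with hn
  have h1 : ∑ i, m i = n * a + ∑ i, d i := by
    simp [hd, Finset.sum_add_distrib, hn]
  have h2 : ∑ i, m i ^ 2 = n * a ^ 2 + 2 * a * ∑ i, d i + ∑ i, d i ^ 2 := by
    simp only [hd, add_sq, Finset.sum_add_distrib, Finset.mul_sum]
    simp [hn]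
  have h3 : n * ∑ i, d i ^ 2 + 1 ≤ (∑ i, d i) ^ 2 + n := by
    rw [h1, h2] at h
    nlinarith
  set A := Finset.univ.filter fun i => d i ≠ 0 with hA
  set k := A.card with hk
  have hs1 : ∑ i, d i = ∑ i ∈ A, d i := by
    rw [hA, Finset.sum_filter]
    refine Finset.sum_congr rfl fun i _ => ?_
    by_cases h : d i = 0 <;> simp [h]
  have hs2 : ∑ i, d i ^ 2 = ∑ i ∈ A, d i ^ 2 := by
    rw [hA, Finset.sum_filter]
    refine Finset.sum_congr rfl fun i _ => ?_
    by_cases h : d i = 0 <;> simp [h]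
  have hcs : (∑ i ∈ A, d i) ^ 2 ≤ k * ∑ i ∈ A, d i ^ 2 := sq_sum_le_card_mul_sum_sq
  have hkn : k + 1 ≤ n := by
    have : A.card < Fintype.card ι :=
      Finset.card_lt_univ_of_notMem (x := i0) (by simp [hA, hd0])
    omega
  have hge : ∀ i ∈ A, 1 ≤ d i ^ 2 := fun i hi =>
    Nat.one_le_iff_ne_zero.2 (pow_ne_zero _ (Finset.mem_filter.1 hi).2)
  have hkQ : k ≤ ∑ i ∈ A, d i ^ 2 := by
    simpa [hk] using Finset.card_nsmul_le_sum A (fun i => d i ^ 2) 1 hge
  rw [hs1, hs2] at h3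
  set Q := ∑ i ∈ A, d i ^ 2 with hQ
  obtain ⟨l, hl⟩ : ∃ l, n = k + 1 + l := ⟨n - (k + 1), by omega⟩
  have h4 : (l + 1) * Q + 1 ≤ k + 1 + l := by
    rw [hl] at h3
    nlinarith
  by_cases hk0 : k = 0
  · refine ⟨a, Or.inl fun i => ?_⟩
    have : A = ∅ := Finset.card_eq_zero.1 hk0
    have h5 : i ∉ A := by simp [this]
    have : d i = 0 := by simpa [hA] using h5
    rw [hd, this, add_zero]
  have hQk : Q = k := by
    by_contra hne
    have : k + 1 ≤ Q := by omega
    have : (l + 1) * (k + 1) ≤ (l + 1) * Q := Nat.mul_le_mul_left _ this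
    have : 1 ≤ k := Nat.one_le_iff_ne_zero.2 hk0
    nlinarith
  have hone : ∀ i ∈ A, d i = 1 := by
    have := (Finset.sum_eq_sum_iff_of_le (s := A) (f := fun _ => 1) (g := fun i => d i ^ 2)
      hge).1 (by simp [← hQ, hQk, hk])
    intro i hi
    have := this i hi
    exact (Nat.pow_eq_one.1 this.symm).resolve_right two_ne_zero
  have hdA : ∀ i, d i = if i ∈ A then 1 else 0 := by
    intro i
    split_ifs with h
    · exact hone i h
    · simpa [hA] using h
  rw [hQk] at h4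
  have h5 : k = 1 ∨ l = 0 := by
    by_contra hcon
    push Not at hcon
    obtain ⟨k', hk'⟩ : ∃ k', k = k' + 2 := ⟨k - 2, by omega⟩
    obtain ⟨l', rfl⟩ : ∃ l', l = l' + 1 := ⟨l - 1, by omega⟩
    rw [hk'] at h4
    nlinarith
  rcases h5 with h5 | h5
  · obtain ⟨j, hj⟩ := Finset.card_eq_one.1 h5
    refine ⟨a, Or.inr (Or.inl ⟨j, fun i => ?_⟩)⟩
    rw [hd, hdA, hj]
    simp
  · refine ⟨a + 1, Or.inr (Or.inr ⟨i0, fun i => ?_⟩)⟩
    have hAe : A = Finset.univ.erase i0 := by
      refine Finset.eq_of_subset_of_card_le (fun i hi => ?_) ?_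
      · refine Finset.mem_erase.2 ⟨?_, Finset.mem_univ _⟩
        rintro rfl
        simp [hA, hd0] at hi
      · rw [Finset.card_erase_of_mem (Finset.mem_univ _), Finset.card_univ]
        omega
    rw [hd, hdA, hAe]
    by_cases hi : i = i0 <;> simp [hi]

/-- A character of an abelian group with values of norm at most one off the identity is a multiple
of the regular character, up to adding or subtracting one linear character. -/
theorem near_regular_of_comm {S : Type*} [Group S] [Finite S] (hS : ∀ a b : S, a * b = b * a)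
    {ψ : S → ℂ} (hψ : IsCharacter S ψ) (hle : ∀ x, x ≠ 1 → ‖ψ x‖ ≤ 1) :
    ∃ a : ℕ, (∀ x, ψ x = a * regChar S x) ∨
      ∃ (ε : ℤ) (μ : S →* ℂˣ), (ε = 1 ∨ ε = -1) ∧ ∀ x, ψ x = a * regChar S x + ε * μ x := by
  classical
  haveI := Fintype.ofFinite S
  obtain ⟨m, hm, hsq, hdeg⟩ := hψ.exists_nat_classInner_self
  have hlin : ∀ φ : IrrCharacter S, (φ : S → ℂ) 1 = 1 := fun φ =>
    φ.2.apply_one_eq_one_of_comm hS
  have hdeg1 : ∀ φ : IrrCharacter S, charDegree (φ : S → ℂ) = 1 := fun φ =>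
    φ.isCharacter.charDegree_eq_one_iff.2 (hlin φ)
  simp only [hdeg1, mul_one] at hdeg
  have hcard : Fintype.card (IrrCharacter S) = Nat.card S := by
    have := sum_sq_charDegree (G := S)
    simpa [hdeg1] using this
  have hval : ∀ x, ψ x = ∑ φ : IrrCharacter S, (m φ : ℂ) * (φ : S → ℂ) x := by
    intro x
    rw [hψ.isClassFunction.apply_eq_sum_irr x]
    simp [hm]
  have hreg : ∀ x, regChar S x = ∑ φ : IrrCharacter S, (φ : S → ℂ) x := by
    intro x
    rw [← sum_degree_mul_apply x]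
    simp [hlin]
  have hnorm : (Nat.card S : ℝ) * ((∑ φ, m φ ^ 2 : ℕ) : ℝ) = ∑ x, ‖ψ x‖ ^ 2 := by
    have h1 := re_classInner_self ψ
    rw [hsq] at h1
    simp only [Complex.natCast_re] at h1
    rw [h1, ← mul_assoc, mul_inv_cancel₀, one_mul]
    exact_mod_cast Nat.card_pos.ne'
  have hbound : ∑ x, ‖ψ x‖ ^ 2 + 1 ≤ ((∑ φ, m φ : ℕ) : ℝ) ^ 2 + Nat.card S := by
    rw [← Finset.add_sum_erase _ _ (Finset.mem_univ (1 : S)), hψ.norm_apply_one, hdeg]
    have h1 : ∑ x ∈ Finset.univ.erase (1 : S), ‖ψ x‖ ^ 2 ≤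
        ∑ x ∈ Finset.univ.erase (1 : S), (1 : ℝ) := by
      refine Finset.sum_le_sum fun x hx => ?_
      have := hle x (Finset.mem_erase.1 hx).1
      have := norm_nonneg (ψ x)
      nlinarith
    rw [Finset.sum_const, Finset.card_erase_of_mem (Finset.mem_univ _), Finset.card_univ,
      ← Nat.card_eq_fintype_card, nsmul_eq_mul, mul_one,
      Nat.cast_sub (Nat.one_le_iff_ne_zero.2 Nat.card_pos.ne')] at h1
    push_cast at h1 ⊢
    linarith
  rw [← hnorm] at hbound
  have hb : Fintype.card (IrrCharacter S) * ∑ φ, m φ ^ 2 + 1 ≤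
      (∑ φ, m φ) ^ 2 + Fintype.card (IrrCharacter S) := by
    rw [hcard]
    exact_mod_cast hbound
  obtain ⟨a, h | ⟨j, h⟩ | ⟨j, h⟩⟩ := nat_near_const m hb
  · refine ⟨a, Or.inl fun x => ?_⟩
    rw [hval, hreg, Finset.mul_sum]
    simp [h]
  · obtain ⟨μ, hμ⟩ := j.2.exists_monoidHom_of_comm hS
    refine ⟨a, Or.inr ⟨1, μ, Or.inl rfl, fun x => ?_⟩⟩
    rw [hval, hreg, Finset.mul_sum]
    simp [h, add_mul, Finset.sum_add_distrib, hμ]
  · obtain ⟨μ, hμ⟩ := j.2.exists_monoidHom_of_comm hS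
    refine ⟨a, Or.inr ⟨-1, μ, Or.inr rfl, fun x => ?_⟩⟩
    rw [hval, hreg, Finset.mul_sum]
    have h' : ∀ i : IrrCharacter S, (a : ℂ) * (i : S → ℂ) x =
        (m i : ℂ) * (i : S → ℂ) x + (if i = j then 1 else 0) * (i : S → ℂ) x := by
      intro i
      rw [← h i]
      push_cast
      ring
    simp only [h', Finset.sum_add_distrib]
    simp [hμ]

section
variable {G : Type*} [Group G] [Finite G] {N : Subgroup G} [hN : N.Normal]

/-- A character all of whose constituents on `N` equal the irreducible restriction of `θh` is a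
multiple of `θh` by a character of the quotient. -/
theorem exists_quot_mul_of_constituents [Fintype N] {θh : G → ℂ} (hθ : IsCharacter G θh)
    (hirr : IsIrrCharacter N fun n => θh n) {χ : G → ℂ} (hχ : IsCharacter G χ)
    (h : ∀ φ, IsIrrCharacter N φ → classInner (fun n : N => χ n) φ ≠ 0 → φ = fun n : N => θh n) :
    ∃ ψ : G ⧸ N → ℂ, IsCharacter (G ⧸ N) ψ ∧ ∀ g : G, χ g = ψ g * θh g := by
  revert h
  refine hχ.induction_on (P := fun χ : G → ℂ => (∀ φ, IsIrrCharacter N φ →
    classInner (fun n : N => χ n) φ ≠ 0 → φ = fun n : N => θh n) →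
    ∃ ψ : G ⧸ N → ℂ, IsCharacter (G ⧸ N) ψ ∧ ∀ g : G, χ g = ψ g * θh g) ?_ ?_ ?_
  · exact fun _ => ⟨0, IsCharacter.zero, fun g => by simp⟩
  · intro χ hχ h
    obtain ⟨φ, hφ, hne⟩ := exists_irr_under N hχ
    obtain rfl := h φ hφ hne
    obtain ⟨β, hβ, hh⟩ := gallagher_surj_quotient hθ hirr hχ hne
    exact ⟨β, hβ.isCharacter, hh⟩
  · intro χ ξ hχ hξ ih1 ih2 h
    have key := fun φ (hφ : IsIrrCharacter N φ) =>
      (hχ.restrict N).classInner_add_ne_zero_iff (hξ.restrict N) hφ.isCharacter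
    obtain ⟨ψ1, h1, e1⟩ := ih1 fun φ hφ hne => h φ hφ ((key φ hφ).2 (Or.inl hne))
    obtain ⟨ψ2, h2, e2⟩ := ih2 fun φ hφ hne => h φ hφ ((key φ hφ).2 (Or.inr hne))
    exact ⟨ψ1 + ψ2, h1.add h2, fun g => by simp [e1, e2, add_mul]⟩

theorem exists_quot_mul_of_res {θh : G → ℂ} (hθ : IsCharacter G θh)
    (hirr : IsIrrCharacter N fun n => θh n) {χ : G → ℂ} (hχ : IsCharacter G χ) {c : ℂ}
    (h : ∀ n : N, χ n = c * θh n) :
    ∃ ψ : G ⧸ N → ℂ, IsCharacter (G ⧸ N) ψ ∧ ψ 1 = c ∧ ∀ g : G, χ g = ψ g * θh g := by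
  haveI := Fintype.ofFinite N
  obtain ⟨ψ, hψ, e⟩ := exists_quot_mul_of_constituents hθ hirr hχ fun φ hφ hne => by
    have h1 : (fun n : N => χ n) = c • fun n : N => θh n := funext fun n => by simp [h]
    rw [h1, classInner_smul_left] at hne
    exact (hirr.eq_of_classInner_ne_zero hφ (right_ne_zero_of_mul hne)).symm
  refine ⟨ψ, hψ, ?_, e⟩
  have h1 := e 1
  have h2 := h 1
  have h3 : θh 1 ≠ 0 := hirr.apply_one_ne_zero
  simp only [OneMemClass.coe_one, QuotientGroup.mk_one] at h1 h2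
  exact mul_right_cancel₀ h3 (h1.symm.trans h2)

variable {χ : G → ℂ} {θ : N → ℂ} {e : ℕ}

theorem fr_ne_zero (he : e ^ 2 = N.index) : (e : ℂ) ≠ 0 := by
  rintro h
  rw [Nat.cast_eq_zero.1 h] at he
  exact N.index_ne_zero_of_finite he.symm

theorem fr_invariant (hχ : IsClassFunction G χ) (he : e ^ 2 = N.index)
    (hr : ∀ n : N, χ n = e * θ n) (g : G) : conjChar g θ = θ :=
  invariant_of_res_eq_smul hχ (fr_ne_zero he) (funext fun n => by simp [hr]) g

theorem fr_classInner [Fintype N] (hθ : IsIrrCharacter N θ) (hr : ∀ n : N, χ n = e * θ n) :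
    classInner (fun n : N => χ n) θ = e := by
  have h1 : (fun n : N => χ n) = (e : ℂ) • θ := funext fun n => by simp [hr]
  rw [h1, classInner_smul_left, hθ.classInner_self, mul_one]

/-- A fully ramified character vanishes off the normal subgroup. -/
theorem fr_vanish (hχ : IsIrrCharacter G χ) (hθ : IsIrrCharacter N θ) (he : e ^ 2 = N.index)
    (hr : ∀ n : N, χ n = e * θ n) {g : G} (hg : g ∉ N) : χ g = 0 := by
  haveI := Fintype.ofFinite G
  haveI := Fintype.ofFinite N
  revert g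
  have h1 : (fun n : N => χ n) = (e : ℂ) • θ := funext fun n => by simp [hr]
  rw [← classInner_res_self_eq_index_iff N hχ, h1, classInner_smul_left,
    classInner_smul_right, hθ.classInner_self, ← he]
  simp [sq]

/-- A fully ramified character is the only irreducible character over its constituent. -/
theorem fr_unique [Fintype N] (hχ : IsIrrCharacter G χ) (hθ : IsIrrCharacter N θ)
    (he : e ^ 2 = N.index) (hr : ∀ n : N, χ n = e * θ n) {ψ : G → ℂ} (hψ : IsIrrCharacter G ψ)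
    (hne : classInner (fun n : N => ψ n) θ ≠ 0) : ψ = χ := by
  classical
  haveI := Fintype.ofFinite G
  obtain ⟨m, hm, -, hsq⟩ := exists_mult_over hθ
  rw [relIndex_inertia_of_invariant (fr_invariant hχ.isClassFunction he hr)] at hsq
  have h1 : m ⟨χ, hχ⟩ = e := by
    have := hm ⟨χ, hχ⟩
    rw [fr_classInner hθ hr] at this
    exact_mod_cast this.symm
  by_contra hne'
  have h2 : (⟨ψ, hψ⟩ : IrrCharacter G) ≠ ⟨χ, hχ⟩ := fun h => hne' (congrArg Subtype.val h)
  have h3 := Finset.add_le_sum (f := fun χ => m χ ^ 2) (s := Finset.univ)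
    (fun _ _ => Nat.zero_le _) (Finset.mem_univ _) (Finset.mem_univ _) h2
  rw [hsq, h1, he] at h3
  have h4 : m ⟨ψ, hψ⟩ = 0 := by
    have : m ⟨ψ, hψ⟩ ^ 2 = 0 := by omega
    exact pow_eq_zero_iff two_ne_zero |>.1 this
  exact hne (by simpa [h4] using hm ⟨ψ, hψ⟩)

end

end Cfsg.Agent.Ch
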