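import Mathlib
import Cfsg.Agent.S4208
import Cfsg.Agent.FG.H93Elt
import Cfsg.Agent.GT.TransferAbelian
import Cfsg.Agent.GT.PGroupElemAb

/-!
# Normal `p`-complements from bounds on the rank of `p`-subgroups
-/

set_option autoImplicit false

namespace Cfsg.Agent.Ch

variable {G : Type*} [Group G] [Finite G] {p : ℕ} [hp : Fact p.Prime]

theorem exists_dvd_pow_sub_one_of_index_frattini {Q : Subgroup G} (hQ : IsPGroup p Q) {d : ℕ}
    (hd : (frattini Q).index ≤ p ^ d) {q : ℕ} (hq : q.Prime) (hqp : q ≠ p) {g : G}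
    (hg : g ∈ Subgroup.normalizer (Q : Set G)) {k : ℕ} (hk : orderOf g = q ^ k)
    (hc : g ∉ Subgroup.centralizer (Q : Set G)) :
    ∃ j, 1 ≤ j ∧ j ≤ d ∧ p ^ j ∣ Nat.card Q ∧ q ∣ p ^ j - 1 := by
  obtain ⟨n, hn⟩ := IsPGroup.iff_card.1 hQ
  obtain ⟨r, hr⟩ := hQ.index (frattini Q)
  have hrd : r ≤ d := (Nat.pow_le_pow_iff_right hp.out.one_lt).1 (hr ▸ hd)
  have h1 : q ∣ Nat.card (MulAut Q) := by
    by_contra h
    exact hc (FG.H93.mem_centralizer_of_coprime_aut hg
      (hk ▸ Nat.Coprime.pow_left _ (hq.coprime_iff_not_dvd.2 h)))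
  have h2 : ∀ i, ¬ q ∣ p ^ i := fun i h =>
    hqp ((Nat.prime_dvd_prime_iff_eq hq hp.out).1 (hq.dvd_of_dvd_pow h))
  obtain ⟨i, hi, h3⟩ := (Prime.dvd_finsetProd_iff hq.prime _).1
    ((hq.dvd_mul.1 (h1.trans (S4208.result hn hr))).resolve_left (h2 _))
  rw [Finset.mem_range] at hi
  refine ⟨r - i, by omega, by omega, (pow_dvd_pow p (Nat.sub_le r i)).trans
    (hr ▸ Subgroup.index_dvd_card _), (hq.dvd_mul.1 ?_).resolve_left (h2 i)⟩
  rwa [Nat.mul_sub, mul_one, ← pow_add, Nat.add_sub_cancel' hi.le]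

theorem hasNormalPComplement_of_index_frattini (P : Sylow p G) {d : ℕ}
    (hd : ∀ Q : Subgroup G, Q ≤ P → (frattini Q).index ≤ p ^ d)
    (h : ∀ q : ℕ, q.Prime → q ∣ Nat.card G → ∀ j, 1 ≤ j → j ≤ d → p ^ j ∣ Nat.card G →
      ¬ q ∣ p ^ j - 1) : HasNormalPComplement p G := by
  refine GT.Tr.frobenius_of_primePow P fun Q hQ _ q hq hqp g hg ⟨k, hk⟩ => ?_
  by_contra hc
  obtain ⟨j, h1, h2, h3, h4⟩ := exists_dvd_pow_sub_one_of_index_frattini (P.2.to_le hQ) (hd Q hQ)
    hq hqp hg hk hc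
  refine h q hq ?_ j h1 h2 (h3.trans Q.card_subgroup_dvd_card) h4
  rcases k with _ | k
  · rw [pow_zero, orderOf_eq_one_iff] at hk
    exact absurd (hk ▸ one_mem _) hc
  · exact (dvd_pow_self q k.succ_ne_zero).trans (hk ▸ orderOf_dvd_natCard g)

theorem index_frattini_le_of_abelian {P Q : Subgroup G} (hP : IsPGroup p P)
    (hab : IsMulCommutative P) (hQ : Q ≤ P) : (frattini Q).index ≤ p ^ Group.rank P := by
  obtain ⟨r, hr⟩ := hP.index (frattini P)
  rw [GT.PG.rank_eq_of_index_frattini hP hr, ← hr, GT.PG.index_frattini_eq_card_omegaOne hP hab,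
    GT.PG.index_frattini_eq_card_omegaOne (hP.to_le hQ) ⟨⟨fun a b => Subtype.ext (congrArg Subtype.val
      (hab.1.1 ⟨a, hQ a.2⟩ ⟨b, hQ b.2⟩) :)⟩⟩]
  exact Subgroup.card_le_of_le (GT.PG.omegaOne_mono hQ)

theorem hasNormalPComplement_of_abelian_rank (P : Sylow p G)
    (hab : IsMulCommutative (P : Subgroup G)) {d : ℕ} (hd : Group.rank (P : Subgroup G) ≤ d)
    (h : ∀ q : ℕ, q.Prime → q ∣ Nat.card G → ∀ j, 1 ≤ j → j ≤ d → p ^ j ∣ Nat.card G →
      ¬ q ∣ p ^ j - 1) : HasNormalPComplement p G :=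
  hasNormalPComplement_of_index_frattini P (fun _ hQ => (index_frattini_le_of_abelian P.2 hab
    hQ).trans (Nat.pow_le_pow_right hp.out.pos hd)) h

/-- For the least prime divisor `p`, rank two suffices unless `12` divides the order. -/
theorem hasNormalPComplement_of_minimal_of_rank_two (P : Sylow p G)
    (hd : ∀ Q : Subgroup G, Q ≤ P → (frattini Q).index ≤ p ^ 2)
    (hmin : ∀ q : ℕ, q.Prime → q ∣ Nat.card G → p ≤ q) (h12 : ¬ 12 ∣ Nat.card G) :
    HasNormalPComplement p G := by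
  refine hasNormalPComplement_of_index_frattini P hd fun q hq hqG j h1 h2 h3 h4 => ?_
  have hpq := hmin q hq hqG
  have h5 : ¬ q ∣ p - 1 := fun h => by
    have := Nat.le_of_dvd (by have := hp.out.two_le; omega) h
    have := hp.out.two_le
    omega
  interval_cases j
  · exact h5 (by simpa using h4)
  · have h6 : q ∣ p + 1 := by
      rw [show p ^ 2 - 1 = (p + 1) * (p - 1) from Nat.sq_sub_sq p 1] at h4
      exact (hq.dvd_mul.1 h4).resolve_right h5
    have h7 : q ≠ p := by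
      rintro rfl
      exact hq.one_lt.ne' (Nat.dvd_one.1 ((Nat.dvd_add_right dvd_rfl).1 h6))
    have h8 : q = p + 1 := by
      have := Nat.le_of_dvd p.succ_pos h6
      omega
    have h9 : p = 2 := by
      by_contra h
      have := (hp.out.eq_two_or_odd'.resolve_left h).add_one
      rw [← h8, hq.even_iff] at this
      have := hp.out.two_le
      omega
    subst h9 h8
    exact h12 (Nat.Coprime.mul_dvd_of_dvd_of_dvd (by norm_num : Nat.Coprime 4 3) h3 hqG)

end Cfsg.Agent.Ch
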