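import Cfsg.Agent.Ch.RealChar3
import Cfsg.Agent.Ch.RealChar2
import Cfsg.Agent.Ch.MGroup
import Cfsg.Agent.Ch.Quotient
import Cfsg.Agent.Ch.Galois
import Cfsg.Agent.Ch.BrauerPerm
import Cfsg.Agent.Deg.Basic
import Cfsg.Agent.FG.SylowCount
import Cfsg.Agent.GT.Fitting

/-!
# Real characters of odd degree and normal subgroups

* `RO χ`: real of odd degree; constituents on normal subgroups (`RO.real_under`,
  `RO.le_charKer_of_odd`, `apply_one_under`), `exists_normalizer_conj`
* `FS X S`: the number of real odd-degree irreducible characters with `S` in the kernel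
* `card_RO_eq_normalizer`: the real McKay count for `p = 2` in solvable groups
-/

set_option autoImplicit false
open Cfsg

namespace Cfsg.Agent.Ch.ROdd

universe u
variable {G : Type*} [Group G]

/-- real of odd degree -/
def RO (χ : G → ℂ) : Prop := (∀ g, (χ g).im = 0) ∧ Odd (charDegree χ)

theorem inner_conj_ne_zero {X : Type*} [Group X] [Fintype X] {φ ψ : X → ℂ} (hψ : IsCharacter X ψ)
    (h : classInner φ ψ ≠ 0) :
    classInner (fun g => starRingEnd ℂ (φ g)) (fun g => starRingEnd ℂ (ψ g)) ≠ 0 := by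
  rw [hψ.isGeneralizedCharacter.classInner_galois]
  simpa using h

theorem index_inertia_dvd [Finite G] {N : Subgroup G} [N.Normal] [Fintype N] {χ : G → ℂ}
    (hχ : IsIrrCharacter G χ) {θ : N → ℂ} (hθ : IsIrrCharacter N θ)
    (h : classInner (fun n : N => χ n) θ ≠ 0) : (inertia N θ).index ∣ charDegree χ := by
  have := Fintype.ofFinite G
  obtain ⟨e, he⟩ := (hχ.isCharacter.restrict N).exists_nat_classInner hθ.isCharacter
  rw [RC.charDegree_eq_of_under hχ hθ he (by rwa [he, Nat.cast_ne_zero] at h)]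
  exact Dvd.dvd.mul_right (dvd_mul_left _ _) _

theorem RO.real_under [Finite G] {N : Subgroup G} [N.Normal] [Fintype N] {χ : G → ℂ}
    (hχ : IsIrrCharacter G χ) (hr : RO χ) {θ : N → ℂ} (hθ : IsIrrCharacter N θ)
    (h : classInner (fun n : N => χ n) θ ≠ 0) : ∀ n, (θ n).im = 0 := by
  have := Fintype.ofFinite G
  obtain ⟨φ, hφ, hφσ, -⟩ := RC.exists_fixed_odd (conjugates θ) (fun φ n => starRingEnd ℂ (φ n))
    (fun φ => by simp) (by
      intro φ hφ
      obtain ⟨g, rfl⟩ := mem_conjugates.mp hφ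
      have h1 := inner_conj_ne_zero (isIrrCharacter_conjChar hθ g).isCharacter
        ((classInner_res_conjChar hχ.isClassFunction g θ).trans_ne h)
      simp only [fun g => congrFun (RC.real_iff_conj.mp hr.1) g] at h1
      exact mem_conjugates_of_under hχ hθ (isIrrCharacter_conjChar hθ g).complexConj h h1)
    (fun _ => 1) (fun _ => rfl) (by
      rw [Finset.sum_const, smul_eq_mul, mul_one, card_conjugates]
      exact hr.2.of_dvd_nat (index_inertia_dvd hχ hθ h))
  obtain ⟨g, rfl⟩ := mem_conjugates.mp hφ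
  intro n
  rw [← conjChar_inv_conjChar g θ]
  exact RC.real_iff_conj.mpr hφσ _

theorem RO.le_charKer_of_odd [Finite G] {N : Subgroup G} [N.Normal] (hN : ¬ 2 ∣ Nat.card N)
    {χ : G → ℂ} (hχ : IsIrrCharacter G χ) (hr : RO χ) : N ≤ charKer χ := by
  have := Fintype.ofFinite N
  obtain ⟨θ, hθ, h⟩ := exists_irr_under N hχ
  rw [eq_one_of_real_of_odd (Nat.odd_iff.mpr (by omega)) hθ (hr.real_under hχ hθ h)] at h
  exact hχ.le_charKer_of_classInner_one N h

theorem apply_one_under [Finite G] {p : ℕ} [hp : Fact p.Prime] {N : Subgroup G} [N.Normal]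
    [Fintype N] (hN : IsPGroup p N) {χ : G → ℂ} (hχ : IsIrrCharacter G χ)
    (hd : ¬ p ∣ charDegree χ) {θ : N → ℂ} (hθ : IsIrrCharacter N θ)
    (h : classInner (fun n : N => χ n) θ ≠ 0) : θ 1 = 1 := by
  have := Fintype.ofFinite G
  obtain ⟨k, hk⟩ := RC.exists_charDegree_eq_pow hN hθ
  exact hθ.isCharacter.charDegree_eq_one_iff.mp (RC.eq_one_of_dvd_pow_of_not_dvd hp.out
    hk.dvd fun h' => hd (h'.trans (charDegree_dvd_of_under hχ hθ h)))

theorem exists_normalizer_conj [Finite G] {p : ℕ} [Fact p.Prime] (P : Sylow p G) {N : Subgroup G}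
    [N.Normal] {θ : N → ℂ} (hθ : (P : Subgroup G) ≤ inertia N θ) {g : G}
    (hg : (P : Subgroup G) ≤ inertia N (conjChar g θ)) :
    ∃ n ∈ Subgroup.normalizer ((P : Subgroup G) : Set G), conjChar g θ = conjChar n θ := by
  have h1 : ((g • P : Sylow p G) : Subgroup G) ≤ inertia N θ := by
    rintro _ ⟨x, hx, rfl⟩
    exact mem_inertia_conjChar.mp (hg hx)
  obtain ⟨t, ht⟩ := MulAction.exists_smul_eq (inertia N θ) ((g • P).subtype h1) (P.subtype hθ)
  rw [Sylow.smul_subtype] at ht
  have h2 := Sylow.subtype_injective ht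
  rw [Subgroup.smul_def, ← mul_smul, Sylow.smul_eq_iff_mem_normalizer] at h2
  exact ⟨t * g, h2, by rw [conjChar_mul, mem_inertia'.mp t.2]⟩

/-- the number of real odd-degree irreducible characters with `S` in the kernel -/
noncomputable def FS (X : Type*) [Group X] (S : X → Prop) : ℕ :=
  Nat.card {ψ : IrrCharacter X // RO (ψ : X → ℂ) ∧ ∀ x, S x → (ψ : X → ℂ) x = (ψ : X → ℂ) 1}

theorem FS_surj {X Y : Type*} [Group X] [Group Y] [Finite X] (f : X →* Y)
    (hf : Function.Surjective f) {S : X → Prop} {S' : Y → Prop}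
    (h1 : ∀ x, f x = 1 → S x ∨ x = 1) (h2 : ∀ x, S x → S' (f x) ∨ f x = 1)
    (h3 : ∀ x, S' (f x) → S x) : FS X S = FS Y S' := by
  symm
  refine Nat.card_congr (Equiv.ofBijective (fun ψ => ⟨⟨fun x => (ψ.1 : Y → ℂ) (f x),
    (isIrrCharacter_comp_surjective_iff hf).mpr ψ.1.2⟩, ⟨fun x => ψ.2.1.1 _, ?_⟩, fun x hx => ?_⟩)
    ⟨fun ψ ψ' h => ?_, fun χ => ?_⟩)
  · rw [charDegree_comp]; exact ψ.2.1.2
  · simp only [map_one]
    rcases h2 x hx with h | h
    · exact ψ.2.2 _ h
    · rw [h]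
  · exact Subtype.ext (Subtype.ext (comp_injective_of_surjective hf
      (congrArg (fun x => ((Subtype.val x : IrrCharacter X) : X → ℂ)) h)))
  · have hk : f.ker ≤ charKer (χ.1 : X → ℂ) := fun x hx => χ.1.2.mem_charKer.mpr (by
      rcases h1 x hx with h | h
      · exact χ.2.2 x h
      · rw [h])
    refine ⟨⟨⟨_, χ.1.2.deflate hf hk⟩, ⟨fun y => ?_, ?_⟩, fun y hy => ?_⟩,
      Subtype.ext (Subtype.ext (deflate_comp hk))⟩
    · obtain ⟨x, rfl⟩ := hf y
      exact (congrArg Complex.im (deflate_apply hk x)).trans (χ.2.1.1 x)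
    · rw [charDegree_congr (ψ := (χ.1 : X → ℂ)) (deflate_one hk)]
      exact χ.2.1.2
    · obtain ⟨x, rfl⟩ := hf y
      exact (deflate_apply hk x).trans ((χ.2.2 x (h3 x hy)).trans (deflate_one hk).symm)

theorem FS_odd [Finite G] {N : Subgroup G} [N.Normal] (hN : ¬ 2 ∣ Nat.card N) :
    FS G (fun _ => False) = FS G (· ∈ N) :=
  Nat.card_congr (Equiv.subtypeEquivRight fun χ => ⟨fun h => ⟨h.1,
    χ.2.isCharacter.le_charKer_iff.mp (h.1.le_charKer_of_odd hN χ.2)⟩,
    fun h => ⟨h.1, fun _ h => h.elim⟩⟩)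

/-- The relative statement from the statement for the quotient. -/
theorem FS_rel [Finite G] (P : Sylow 2 G) (K : Subgroup G) [K.Normal]
    (h : FS (G ⧸ K) (fun _ => False) = FS (Subgroup.normalizer
      ((P.mapSurjective (QuotientGroup.mk'_surjective K) : Subgroup (G ⧸ K)) : Set (G ⧸ K)))
      (fun _ => False)) :
    FS G (· ∈ K) = FS (Subgroup.normalizer ((P : Subgroup G) : Set G)) (fun x => x.1 ∈ K) := by
  rw [FS_surj (QuotientGroup.mk' K) (QuotientGroup.mk'_surjective K) (S' := fun _ => False)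
    (fun x hx => Or.inl ((QuotientGroup.eq_one_iff x).mp hx))
    (fun x hx => Or.inr ((QuotientGroup.eq_one_iff x).mpr hx)) (fun _ h => h.elim), h]
  have h1 := FG.H96.comap_normalizer_map_sylow (QuotientGroup.mk'_surjective K) P
  symm
  refine FS_surj (((QuotientGroup.mk' K).comp (Subgroup.subtype _)).codRestrict _ fun x =>
    (h1.ge (Subgroup.mem_sup_left x.2) :)) (fun y => ?_)
    (fun x hx => Or.inl ((QuotientGroup.eq_one_iff x.1).mp (congrArg Subtype.val hx)))
    (fun x hx => Or.inr (Subtype.ext ((QuotientGroup.eq_one_iff x.1).mpr hx))) (fun _ h => h.elim)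
  obtain ⟨y, hy⟩ := y
  obtain ⟨g, rfl⟩ := QuotientGroup.mk'_surjective K y
  obtain ⟨n, hn, k, hk, rfl⟩ := Subgroup.mem_sup_of_normal_right.mp (h1.le hy)
  exact ⟨⟨n, hn⟩, Subtype.ext (by
    change QuotientGroup.mk' K n = QuotientGroup.mk' K (n * k)
    rw [map_mul, MonoidHom.mem_ker.mp hk, mul_one])⟩

/-- the number of real odd-degree irreducible characters over `lam` -/
noncomputable def nOver (M : Subgroup G) [Fintype M] (lam : M → ℂ) : ℕ :=
  Nat.card {χ : IrrCharacter G // RO (χ : G → ℂ) ∧ classInner (fun n : M => (χ : G → ℂ) n) lam ≠ 0}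

open Classical in
theorem card_mul_FS [Finite G] (P : Sylow 2 G) (M : Subgroup G) [M.Normal] [Fintype M]
    (hM : IsPGroup 2 M) :
    Nat.card (Subgroup.normalizer ((P : Subgroup G) : Set G)) * FS G (fun _ => False) =
      ∑ lam ∈ Finset.univ.filter (fun lam : IrrCharacter M => (∀ n, ((lam : M → ℂ) n).im = 0) ∧
        (lam : M → ℂ) 1 = 1 ∧ (P : Subgroup G) ≤ inertia M lam),
        Nat.card (Subgroup.normalizer ((P : Subgroup G) : Set G) ⊓ inertia M lam :) *
          nOver M lam := by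
  have := Fintype.ofFinite G
  set N := Subgroup.normalizer ((P : Subgroup G) : Set G) with hN
  have h1 : FS G (fun _ => False) =
      ∑ χ ∈ Finset.univ.filter (fun χ : IrrCharacter G => RO (χ : G → ℂ)), 1 := by
    rw [FS, Nat.card_eq_fintype_card, Fintype.card_subtype, ← Finset.card_eq_sum_ones]
    simp
  have h2 : ∀ lam : IrrCharacter M, nOver M lam =
      ∑ χ ∈ Finset.univ.filter (fun χ : IrrCharacter G => RO (χ : G → ℂ)),
        if classInner (fun n : M => (χ : G → ℂ) n) lam ≠ 0 then 1 else 0 := by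
    intro lam
    rw [nOver, Nat.card_eq_fintype_card, Fintype.card_subtype, ← Finset.card_filter,
      Finset.filter_filter]
  simp only [h1, h2, Finset.mul_sum]
  rw [Finset.sum_comm]
  refine Finset.sum_congr rfl fun χ hχ => ?_
  have hr := (Finset.mem_filter.mp hχ).2
  have hd : ¬ 2 ∣ charDegree (χ : G → ℂ) := Nat.two_dvd_ne_zero.mpr (Nat.odd_iff.mp hr.2)
  simp only [mul_ite, mul_one, mul_zero]
  rw [← Finset.sum_filter, Finset.filter_filter]
  obtain ⟨θ, hθ, hne, hP⟩ := RC.exists_invariant_under P.isPGroup' M χ.2 hd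
  rw [Nat.card_eq_fintype_card, ← Finset.card_univ, Finset.card_eq_sum_card_fiberwise
    (f := fun n : N => (⟨conjChar n θ, isIrrCharacter_conjChar hθ n⟩ : IrrCharacter M))]
  · refine Finset.sum_congr rfl fun lam hlam => ?_
    obtain ⟨-, ⟨-, -, h3⟩, h4⟩ := Finset.mem_filter.mp hlam
    obtain ⟨g, hg⟩ := mem_conjugates.mp (mem_conjugates_of_under χ.2 hθ lam.2 hne h4)
    obtain ⟨n₀, hn₀, hn⟩ := exists_normalizer_conj P hP (hg ▸ h3)
    rw [← hg] at hn
    rw [← Fintype.card_subtype, ← Nat.card_eq_fintype_card]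
    refine Nat.card_congr ⟨fun n => ⟨n₀⁻¹ * n.1, Subgroup.mem_inf.mpr
      ⟨N.mul_mem (N.inv_mem hn₀) n.1.2, mem_inertia'.mpr ?_⟩⟩,
      fun m => ⟨⟨n₀ * m, N.mul_mem hn₀ m.2.1⟩, Subtype.ext ?_⟩, fun n => by simp, fun m => by simp⟩
    · rw [conjChar_mul, hn, conjChar_inv_conjChar, ← hn]
      exact congrArg Subtype.val n.2
    · change conjChar (n₀ * m) θ = lam
      rw [conjChar_mul, ← hn]
      exact mem_inertia'.mp m.2.2
  · intro n _
    have h3 := (classInner_res_conjChar χ.2.isClassFunction n θ).trans_ne hne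
    have h4 := isIrrCharacter_conjChar hθ (n : G)
    refine Finset.mem_coe.mpr (Finset.mem_filter.mpr ⟨Finset.mem_univ _, ⟨hr.real_under χ.2 h4 h3,
      apply_one_under hM χ.2 hd h4 h3, fun x hx => mem_inertia_conjChar.mpr (hP ?_)⟩, h3⟩)
    exact (Subgroup.mem_normalizer_iff.mp n.2 x).mp hx

theorem real_indFun_iff [Fintype G] {M T : Subgroup G} [M.Normal] [Fintype M] [Fintype T]
    {lam : M → ℂ} (hlam : IsIrrCharacter M lam) (hr : ∀ n, (lam n).im = 0) (hT : T = inertia M lam)
    (hMT : M ≤ T) {ψ : T → ℂ} (hψ : IsIrrCharacter T ψ)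
    (h : classInner (fun n : M => ψ ⟨n, hMT n.2⟩) lam ≠ 0) :
    (∀ g, (indFun T ψ g).im = 0) ↔ ∀ t, (ψ t).im = 0 := by
  rw [RC.real_iff_conj, RC.real_iff_conj, ← indFun_star]
  refine ⟨fun h1 => clifford_corr_inj hlam hT hMT hψ.complexConj hψ ?_ h h1, fun h1 => by rw [h1]⟩
  have := inner_conj_ne_zero hlam.isCharacter h
  rwa [RC.real_iff_conj.mp hr] at this

open Classical in
theorem nOver_add [Finite G] {M : Subgroup G} [M.Normal] [Fintype M] {lam : M → ℂ}
    (hlam : IsIrrCharacter M lam) (hr : ∀ n, (lam n).im = 0) (h1 : lam 1 = 1)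
    (hodd : ¬ 2 ∣ (inertia M lam).index) :
    nOver M lam + (if lam = fun _ => 1 then 0 else FS (inertia M lam) fun x => x.1 ∈ M) =
      FS (inertia M lam) fun x => ∃ h : x.1 ∈ M, lam ⟨x, h⟩ = 1 := by
  have := Fintype.ofFinite G
  set T := inertia M lam with hT
  have hMT : M ≤ T := le_inertia hlam.isClassFunction
  have e1 : nOver M lam = Nat.card {ψ : IrrCharacter T // RO (ψ : T → ℂ) ∧
      classInner (fun n : M => (ψ : T → ℂ) ⟨n, hMT n.2⟩) lam ≠ 0} := by
    symm
    refine Nat.card_congr (((Equiv.subtypeEquivRight fun _ => and_comm).trans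
      (Equiv.subtypeSubtypeEquivSubtypeInter _ _).symm).trans
      (((cliffordEquiv hlam hT hMT).subtypeEquiv (q := fun χ => RO (χ.1 : G → ℂ))
        fun ψ => ?_).trans ((Equiv.subtypeSubtypeEquivSubtypeInter _
          (fun χ : IrrCharacter G => RO (χ : G → ℂ))).trans
          (Equiv.subtypeEquivRight fun _ => and_comm))))
    rw [cliffordEquiv_apply, RO, RO, real_indFun_iff hlam hr hT hMT ψ.1.2 ψ.2,
      Deg.charDegree_indFun T ψ.1.2.isCharacter, Nat.odd_mul,
      and_iff_right (Nat.odd_iff.mpr (Nat.two_dvd_ne_zero.mp hodd))]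
  have hone : IsIrrCharacter M fun _ => (1 : ℂ) := (irrOne M).2
  have k1 : ∀ ψ : IrrCharacter T, classInner (fun n : M => (ψ : T → ℂ) ⟨n, hMT n.2⟩) lam ≠ 0 →
      ∀ x : T, (∃ h : x.1 ∈ M, lam ⟨x, h⟩ = 1) → (ψ : T → ℂ) x = (ψ : T → ℂ) 1 := by
    rintro ψ h x ⟨hx, hx'⟩
    have h2 := res_eq_smul_of_le_inertia hMT hlam hT.le ψ.2 h
    exact (congrFun h2 ⟨x, hx⟩).trans (by
      rw [Pi.smul_apply, hx', ← h1]; exact (congrFun h2 1).symm)
  have k2 : ∀ ψ : IrrCharacter T, (∀ x : T, x.1 ∈ M → (ψ : T → ℂ) x = (ψ : T → ℂ) 1) →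
      (fun n : M => (ψ : T → ℂ) ⟨n, hMT n.2⟩) = (ψ : T → ℂ) 1 • fun _ => (1 : ℂ) := fun ψ h => by
    funext n
    simp [h ⟨n, hMT n.2⟩ n.2]
  have k3 : ∀ ψ : IrrCharacter T,
      (∀ x : T, (∃ h : x.1 ∈ M, lam ⟨x, h⟩ = 1) → (ψ : T → ℂ) x = (ψ : T → ℂ) 1) →
      classInner (fun n : M => (ψ : T → ℂ) ⟨n, hMT n.2⟩) lam = 0 →
      ∀ x : T, x.1 ∈ M → (ψ : T → ℂ) x = (ψ : T → ℂ) 1 := by
    intro ψ h h0 x hx
    obtain ⟨l, hl⟩ := hlam.isCharacter.exists_monoidHom_of_apply_one h1
    have hl2 : ∀ n, lam n = 1 ∨ lam n = -1 := fun n => by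
      have h2 := monoidHom_units_mul_conj l n
      rw [← congrFun hl n, congrFun (RC.real_iff_conj.mp hr) n] at h2
      exact mul_self_eq_one_iff.mp h2
    obtain ⟨μ, hμ, hne⟩ := exists_irr_under_of_le hMT ψ.2
    have hc := isCharacter_res_of_le hMT ψ.2.isCharacter
    have h2 : ∀ n, lam n = 1 → μ n = μ 1 := fun n hn => hμ.mem_charKer.mp
      (hc.charKer_le_of_constituent hμ hne (hc.mem_charKer.mpr (h ⟨n, hMT n.2⟩ ⟨n.2, hn⟩)))
    obtain ⟨m, hm⟩ := exists_hom_of_commutator_mem_charKer hμ fun a b =>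
      hμ.mem_charKer.mpr (h2 _ (by simp [hl, mul_comm (l a)]))
    have h3 : ∀ n, lam n = 1 → m n = 1 := fun n hn => by simpa [hm] using h2 n hn
    have h4 : μ = fun _ => 1 := by
      by_contra h4
      refine hne (h0 ▸ congrArg _ ?_)
      obtain ⟨a, ha⟩ := Function.ne_iff.mp h4
      have ha1 : lam a = -1 := (hl2 a).resolve_left fun h => ha (by simp [hm, h3 a h])
      have ha2 : μ a = -1 := by
        have := h3 (a * a) (by rw [hlam.isCharacter.map_mul_of_apply_one h1, ha1]; norm_num)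
        rw [map_mul, Units.ext_iff, Units.val_mul, Units.val_one, ← congrFun hm a] at this
        exact (mul_self_eq_one_iff.mp this).resolve_left ha
      funext n
      rcases hl2 n with hn | hn
      · simp [hn, hm, h3 n hn]
      · have := h3 (a * n) (by rw [hlam.isCharacter.map_mul_of_apply_one h1, ha1, hn]; norm_num)
        rw [map_mul, Units.ext_iff, Units.val_mul, Units.val_one, ← congrFun hm a,
          ← congrFun hm n, ha2] at this
        rw [hn]
        linear_combination -this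
    rw [h4] at hne
    have h5 := res_eq_smul_of_le_inertia hMT hone (fun g _ => mem_inertia'.mpr rfl) ψ.2 hne
    exact (congrFun h5 ⟨x, hx⟩).trans (congrFun h5 1).symm
  rw [e1]
  split_ifs with h
  · rw [add_zero]
    refine Nat.card_congr (Equiv.subtypeEquivRight fun ψ => and_congr_right fun _ =>
      ⟨k1 ψ, fun h2 h0 => ?_⟩)
    rw [k2 ψ (k3 ψ h2 h0), h, classInner_smul_left, hone.classInner_self, mul_one] at h0
    exact ψ.2.apply_one_ne_zero h0
  · simp only [FS, Nat.card_eq_fintype_card, Fintype.card_subtype]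
    rw [← Finset.card_union_of_disjoint]
    · congr 1
      ext ψ
      simp only [Finset.mem_union, Finset.mem_filter, Finset.mem_univ, true_and, ← and_or_left]
      refine and_congr_right fun _ => ⟨?_, fun h2 => ?_⟩
      · rintro (h2 | h2)
        · exact k1 ψ h2
        · exact fun x hx => h2 x hx.1
      · exact or_iff_not_imp_left.mpr fun h0 => k3 ψ h2 (not_not.mp h0)
    · rw [Finset.disjoint_filter]
      rintro ψ - ⟨-, h2⟩ ⟨-, h3⟩
      rw [k2 ψ h3, classInner_smul_left, hone.classInner_eq_zero hlam (Ne.symm h), mul_zero] at h2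
      exact h2 rfl

theorem card_quotient_lt [Finite G] {T : Subgroup G} {K : Subgroup T} [K.Normal]
    (h : T ≠ ⊤ ∨ K ≠ ⊥) : Nat.card (T ⧸ K) < Nat.card G := by
  have h1 := K.card_mul_index
  have h2 := T.card_mul_index
  have h3 : 0 < K.index := Nat.pos_of_ne_zero Subgroup.index_ne_zero_of_finite
  have h4 : 0 < T.index := Nat.pos_of_ne_zero Subgroup.index_ne_zero_of_finite
  have h5 : 0 < Nat.card K := Nat.card_pos
  rw [← Subgroup.index, ← h2, ← h1]
  rcases h with h | h
  · have := Subgroup.one_lt_index_of_ne_top h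
    nlinarith [Nat.mul_pos h5 h3, Nat.le_mul_of_pos_left K.index h5]
  · have := (Subgroup.one_lt_card_iff_ne_bot K).mpr h
    nlinarith [Nat.le_mul_of_pos_right (Nat.card K * K.index) h4]

theorem card_quotient_lt' [Finite G] {K : Subgroup G} [K.Normal] (h : K ≠ ⊥) :
    Nat.card (G ⧸ K) < Nat.card G := by
  have := (Subgroup.one_lt_card_iff_ne_bot K).mpr h
  have h3 : 0 < K.index := Nat.pos_of_ne_zero Subgroup.index_ne_zero_of_finite
  rw [← Subgroup.index, ← K.card_mul_index]
  nlinarith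

/-- If `O_p(G)` is self-centralizing and has a faithful invariant linear character then
`G = O_p(G)`. -/
theorem eq_top_of_faithful [Finite G] {M : Subgroup G} [hM : M.Normal]
    (hC : Subgroup.centralizer (M : Set G) ≤ M) {lam : M → ℂ} (hlam : IsCharacter M lam)
    (h1 : lam 1 = 1) (hT : inertia M lam = ⊤) (hK : ∀ m, lam m = 1 → m = 1) : M = ⊤ := by
  obtain ⟨l, hl⟩ := hlam.exists_monoidHom_of_apply_one h1
  refine eq_top_iff.mpr fun g _ => hC (Subgroup.mem_centralizer_iff.mpr fun m hm => ?_)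
  have h2 := mem_inertia.mp (hT ▸ Subgroup.mem_top g : g ∈ inertia M lam) ⟨m, hm⟩
  have h3 := hK (⟨g * m * g⁻¹, hM.conj_mem _ hm g⟩ * ⟨m, hm⟩⁻¹) (by
    simp only [hl, Units.val_inj] at h2
    simp [hl, h2])
  have h4 : g * m * g⁻¹ * m⁻¹ = 1 := congrArg Subtype.val h3
  rw [mul_inv_eq_one, mul_inv_eq_iff_eq_mul] at h4
  exact h4.symm

theorem normal_ker_inertia {M : Subgroup G} [hM : M.Normal] {lam : M → ℂ}
    (hlam : IsCharacter M lam) [Finite G] :
    (((charKer lam).map M.subtype).subgroupOf (inertia M lam)).Normal := by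
  constructor
  rintro x ⟨m, hm, hmx⟩ g
  refine ⟨⟨g * m * (g : G)⁻¹, hM.conj_mem _ m.2 g⟩, ?_, by simp [← show (m : G) = x from hmx]⟩
  exact hlam.mem_charKer.mpr ((mem_inertia.mp g.2 m).trans (hlam.mem_charKer.mp hm))

/-- The number of real odd-degree characters of a solvable group equals that of a Sylow
`2`-normalizer. -/
theorem FS_eq_normalizer (G : Type u) [Group G] [Finite G] : Group.IsSolvable G →
    ∀ P : Sylow 2 G, FS G (fun _ => False) =
      FS (Subgroup.normalizer ((P : Subgroup G) : Set G)) (fun _ => False) := by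
  refine GT.card_induction (P := fun G _ _ => Group.IsSolvable G → ∀ P : Sylow 2 G,
    FS G (fun _ => False) = FS (Subgroup.normalizer ((P : Subgroup G) : Set G)) (fun _ => False))
    ?_ G
  intro G _ _ ih hs P
  classical
  set N := Subgroup.normalizer ((P : Subgroup G) : Set G) with hN
  by_cases hO : pPrimeCore 2 G = ⊥
  swap
  · have : (pPrimeCore 2 G).Characteristic := GT.pPrimeCore_characteristic
    have hodd := GT.not_dvd_card_pPrimeCore (G := G) Nat.prime_two
    rw [FS_odd hodd, FS_rel P _ (ih _ (card_quotient_lt' hO) inferInstance _),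
      FS_odd (N := (pPrimeCore 2 G).subgroupOf N) fun h => hodd (h.trans
        (Subgroup.card_comap_dvd_of_injective _ _ N.subtype_injective))]
    rfl
  by_cases hP : (P : Subgroup G) = ⊤
  · symm
    refine FS_surj N.subtype (fun g => ⟨⟨g, Subgroup.le_normalizer (hP ▸ Subgroup.mem_top g)⟩, rfl⟩)
      (fun x hx => Or.inr (Subtype.ext hx)) (fun _ h => h.elim) (fun _ h => h.elim)
  set M := pCore 2 G with hM
  have : M.Characteristic := GT.pCore_characteristic
  have hMP : M ≤ P := GT.pCore_le_sylow P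
  have hPN : (P : Subgroup G) ≤ N := Subgroup.le_normalizer
  have hMN : M ≤ N := hMP.trans hPN
  have hC := GT.centralizer_pCore_le (G := G) Nat.prime_two hO
  have hM2 := GT.isPGroup_pCore (G := G) 2
  have := Fintype.ofFinite M
  have := Fintype.ofFinite (M.subgroupOf N)
  have hN' : Subgroup.normalizer ((P.subtype hPN : Subgroup N) : Set N) = ⊤ := by
    rw [Sylow.coe_subtype, ← Subgroup.subgroupOf_normalizer_eq hPN, Subgroup.subgroupOf_self]
  have h1 := card_mul_FS P M hM2
  have h2 := card_mul_FS (P.subtype hPN) (M.subgroupOf N)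
    (hM2.comap_of_injective _ N.subtype_injective)
  rw [hN', Subgroup.card_top] at h2
  refine Nat.eq_of_mul_eq_mul_left (Nat.card_pos (α := N)) (h1.trans (Eq.trans ?_ h2.symm))
  let e := Subgroup.subgroupOfEquivOfLe hMN
  have hin : ∀ lam : M → ℂ, inertia (M.subgroupOf N) (fun x => lam (e x)) =
      (inertia M lam).subgroupOf N := fun lam => by
    ext x
    rw [Subgroup.mem_subgroupOf, mem_inertia, mem_inertia]
    exact ⟨fun h n => h (e.symm n), fun h n => h (e n)⟩
  refine Finset.sum_nbij' (fun lam => ⟨fun x => (lam : M → ℂ) (e x),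
    (isIrrCharacter_comp_surjective_iff (f := e.toMonoidHom) e.surjective).mpr lam.2⟩)
    (fun lam => ⟨fun x => (lam : M.subgroupOf N → ℂ) (e.symm x),
    (isIrrCharacter_comp_surjective_iff (f := e.symm.toMonoidHom) e.symm.surjective).mpr lam.2⟩)
    ?_ ?_ (fun lam _ => by simp) (fun lam _ => by simp) ?_
  · intro lam hlam
    replace hlam := (Finset.mem_filter.mp hlam).2
    exact Finset.mem_filter.mpr ⟨Finset.mem_univ _, fun n => hlam.1 _, hlam.2.1,
      (Subgroup.subgroupOf_mono _ hlam.2.2).trans (hin lam).ge⟩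
  · intro lam hlam
    replace hlam := (Finset.mem_filter.mp hlam).2
    refine Finset.mem_filter.mpr ⟨Finset.mem_univ _, fun n => hlam.1 _, hlam.2.1, fun x hx => ?_⟩
    have h3 := hin fun x => (lam : M.subgroupOf N → ℂ) (e.symm x)
    simp only [MulEquiv.symm_apply_apply] at h3
    exact (h3.le (hlam.2.2 (show (⟨x, hPN hx⟩ : N) ∈ _ from hx)) :)
  intro lam hlam
  obtain ⟨-, hr, hl1, hPT⟩ := Finset.mem_filter.mp hlam
  have hMT : M ≤ inertia M lam := hMP.trans hPT
  have hTodd : ¬ 2 ∣ (inertia M lam).index := fun h =>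
    P.not_dvd_index (h.trans (Subgroup.index_dvd_of_le hPT))
  have a1 := nOver_add lam.2 hr hl1 hTodd
  have a2 := nOver_add ((isIrrCharacter_comp_surjective_iff (f := e.toMonoidHom)
    e.surjective).mpr lam.2) (fun n => hr _) hl1 (fun h => (P.subtype hPN).not_dvd_index (h.trans
      (Subgroup.index_dvd_of_le ((Subgroup.subgroupOf_mono _ hPT).trans (hin lam).ge))))
  have hNT : Subgroup.normalizer ((P.subtype hPT : Subgroup (inertia M lam)) :
      Set (inertia M lam)) = N.subgroupOf (inertia M lam) := by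
    rw [Sylow.coe_subtype, ← Subgroup.subgroupOf_normalizer_eq hPT]
  have key : ∀ (L : Subgroup G) [(L.subgroupOf (inertia M lam)).Normal],
      inertia M lam ≠ ⊤ ∨ L.subgroupOf (inertia M lam) ≠ ⊥ →
      FS (inertia M lam) (fun x => x.1 ∈ L) =
        FS (inertia (M.subgroupOf N) fun x => (lam : M → ℂ) (e x)) fun x => x.1.1 ∈ L := by
    intro L _ h
    refine (FS_rel (P.subtype hPT) (L.subgroupOf _)
      (ih _ (card_quotient_lt h) inferInstance _)).trans (Eq.symm ?_)
    let f : (inertia (M.subgroupOf N) fun x => (lam : M → ℂ) (e x)) →* Subgroup.normalizer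
        ((P.subtype hPT : Subgroup (inertia M lam)) : Set (inertia M lam)) :=
      { toFun := fun x => ⟨⟨x.1.1, (hin lam).le x.2⟩, hNT.ge x.1.2⟩
        map_one' := rfl
        map_mul' := fun _ _ => rfl }
    exact FS_surj f
      (fun y => ⟨⟨⟨y.1.1, hNT.le y.2⟩, (hin lam).ge y.1.2⟩, rfl⟩)
      (fun x hx => Or.inr (Subtype.ext (Subtype.ext (congrArg (fun y => y.1.1) hx))))
      (fun x hx => Or.inl hx) (fun x hx => hx)
  have hK : ∀ x : G, x ∈ (charKer (lam : M → ℂ)).map M.subtype ↔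
      ∃ h : x ∈ M, (lam : M → ℂ) ⟨x, h⟩ = 1 := fun x =>
    ⟨by rintro ⟨m, hm, rfl⟩; exact ⟨m.2, (lam.2.mem_charKer.mp hm).trans hl1⟩,
      fun ⟨h, h'⟩ => ⟨⟨x, h⟩, lam.2.mem_charKer.mpr (h'.trans hl1.symm), rfl⟩⟩
  have := normal_ker_inertia lam.2.isCharacter
  have hne : inertia M lam ≠ ⊤ ∨
      ((charKer (lam : M → ℂ)).map M.subtype).subgroupOf (inertia M lam) ≠ ⊥ := by
    by_contra h
    push Not at h
    refine hP (top_le_iff.mp ((eq_top_of_faithful hC lam.2.isCharacter hl1 h.1 fun m hm => ?_).ge.trans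
      hMP))
    have : (⟨m, hMT m.2⟩ : inertia M lam) ∈ ((charKer (lam : M → ℂ)).map M.subtype).subgroupOf
      (inertia M lam) := (hK m).mpr ⟨m.2, hm⟩
    rw [h.2, Subgroup.mem_bot] at this
    exact Subtype.ext (congrArg (fun y : inertia M lam => (y : G)) this)
  have k1 := key _ hne
  have k2 := key M (hne.imp_right fun h h' => h (le_bot_iff.mp (h' ▸
    Subgroup.subgroupOf_mono _ (Subgroup.map_subtype_le _))))
  simp only [hK] at k1
  have k3 : ((lam : M → ℂ) = fun _ => 1) ↔ (fun x => (lam : M → ℂ) (e x)) = fun _ => 1 :=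
    ⟨fun h => by rw [h], fun h => funext fun n => by simpa using congrFun h (e.symm n)⟩
  rw [k1, k2] at a1
  simp only [k3] at a1
  congr 1
  · rw [top_inf_eq]
    change _ = Nat.card (inertia (M.subgroupOf N) fun x => (lam : M → ℂ) (e x))
    rw [hin, ← Subgroup.inf_subgroupOf_left]
    exact (Nat.card_congr (Subgroup.subgroupOfEquivOfLe inf_le_left).toEquiv).symm
  · exact Nat.add_right_cancel (a1.trans a2.symm)

end Cfsg.Agent.Ch.ROdd
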