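import Mathlib
import Cfsg.Agent.Ch.SpcStd

/-!
Sylow 2-subgroups of the normalizer of a self-centralizing Sylow subgroup of order nine.
-/

set_option autoImplicit false

namespace Cfsg.Agent.Ch.Spc

variable {G : Type*} [Group G]

theorem Nine.pow_mem {T : Subgroup G} (hT : Nine T) {n : G}
    (hn : n ∈ Subgroup.normalizer (T : Set G)) : n ^ 24 ∈ T := by
  obtain ⟨τ, hτ, hinj, hm⟩ := exists_coords T hT.comm hT.pow hT.card
  have hτ0 : τ 0 = 1 := by simpa using hτ 0 0
  have : ∀ v, ∃ w, τ w = n * τ v * n⁻¹ := fun v =>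
    (hm _).1 ((Subgroup.mem_normalizer_iff.1 hn _).1 ((hm _).2 ⟨v, rfl⟩))
  choose f hf using this
  have hadd : ∀ v w, f (v + w) = f v + f w := fun v w => hinj (by
    rw [hf, hτ, hτ, hf, hf]; group)
  have h1 : f = ap (f (1, 0), f (0, 1)) := funext (eq_ap f hadd)
  have h2 : ∀ A : V2 × V2, (∀ v, ap A v = 0 → v = 0) → ∀ v, (ap A)^[24] v = v := by
    decide +kernel
  have h3 : ∀ k v, τ (f^[k] v) = n ^ k * τ v * (n ^ k)⁻¹ := by
    intro k v
    induction k with
    | zero => simp
    | succ k ih => rw [Function.iterate_succ_apply', hf, ih, pow_succ']; group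
  have h4 := h2 (f (1, 0), f (0, 1)) fun v hv => by
    rw [← h1] at hv
    have := hf v
    rw [hv, hτ0] at this
    exact hinj (by rw [hτ0]; simpa using this.symm)
  rw [← h1] at h4
  refine hT.cent (Subgroup.mem_centralizer_iff.2 fun t ht => ?_)
  obtain ⟨v, rfl⟩ := (hm _).1 ht
  have := h3 24 v
  rw [h4] at this
  conv_lhs => rw [this]
  group

theorem Nine.sec_sylow [Finite G] (T : Sylow 3 G) (hT : Nine (T : Subgroup G))
    (Q : Sylow 2 (Subgroup.normalizer ((T : Subgroup G) : Set G))) :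
    Sec (T : Subgroup G) ((Subgroup.normalizer ((T : Subgroup G) : Set G)).subtype.comp
      (Q : Subgroup (Subgroup.normalizer ((T : Subgroup G) : Set G))).subtype) := by
  refine ⟨fun x => x.1.2, fun x hx => ?_, ?_⟩
  · obtain ⟨k, hk⟩ := Q.2 x
    have h1 : x ^ 3 = 1 := Subtype.ext (Subtype.ext (hT.pow _ hx))
    exact orderOf_eq_one_iff.1 (Nat.eq_one_of_dvd_coprimes
      (Nat.Coprime.pow_left k (by norm_num : Nat.Coprime 2 3))
      (orderOf_dvd_of_pow_eq_one hk) (orderOf_dvd_of_pow_eq_one h1))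
  · have h1 : ¬ 3 ∣ Nat.card (Subgroup.normalizer ((T : Subgroup G) : Set G) ⧸
        (T : Subgroup G).subgroupOf (Subgroup.normalizer ((T : Subgroup G) : Set G))) := fun h =>
      T.not_dvd_index (h.trans (Subgroup.relIndex_dvd_index_of_le Subgroup.le_normalizer))
    have h2 : IsPGroup 2 (Subgroup.normalizer ((T : Subgroup G) : Set G) ⧸
        (T : Subgroup G).subgroupOf (Subgroup.normalizer ((T : Subgroup G) : Set G))) := by
      intro x
      refine ⟨3, orderOf_dvd_iff_pow_eq_one.1 (Nat.Coprime.dvd_of_dvd_mul_left (m := 3) ?_ ?_)⟩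
      · exact Nat.Coprime.of_dvd_left (orderOf_dvd_natCard x)
          ((Nat.Prime.coprime_iff_not_dvd Nat.prime_three).2 h1).symm
      · obtain ⟨n, rfl⟩ := QuotientGroup.mk_surjective x
        refine orderOf_dvd_of_pow_eq_one ?_
        rw [← QuotientGroup.mk_pow, QuotientGroup.eq_one_iff]
        exact hT.pow_mem n.2
    obtain ⟨k, hk⟩ := IsPGroup.iff_card.1 h2
    have h3 := ((T : Subgroup G).subgroupOf
      (Subgroup.normalizer ((T : Subgroup G) : Set G))).card_mul_index
    rw [Nat.card_congr (Subgroup.subgroupOfEquivOfLe Subgroup.le_normalizer).toEquiv, hT.card,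
      Subgroup.index_eq_card, hk] at h3
    rw [Q.card_eq_multiplicity, ← h3, Nat.factorization_mul (by norm_num) (by positivity),
      Finsupp.add_apply, Nat.factorization_eq_zero_of_not_dvd (by norm_num : ¬ 2 ∣ 9),
      Nat.prime_two.factorization_pow, zero_add, Finsupp.single_eq_same]

theorem Sec.comp {T : Subgroup G} {X Y : Type*} [Group X] [Group Y] {f : X →* G} (hf : Sec T f)
    (e : Y ≃* X) : Sec T (f.comp e.toMonoidHom) :=
  ⟨fun _ => hf.mem _, fun _ hx => e.injective ((hf.inj _ hx).trans (map_one e).symm),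
    by rw [hf.card, Nat.card_congr e.toEquiv]⟩

end Cfsg.Agent.Ch.Spc
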