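import Mathlib
import Cfsg.Prelude.Def_OddOrderChar
import Cfsg.Agent.Ch.TIFN

/-!
# Coherent sets of characters of a TI-subgroup with Frobenius normalizer
-/

set_option autoImplicit false
open Cfsg
open scoped ComplexConjugate

namespace Cfsg.Agent.Ch.Exc

variable {G : Type*} [Group G] [Fintype G]

/-- The set-up: `K` is a TI-subgroup with normalizer `N`, containing the centralizers of its
non-identity elements; `S` is the set of irreducible characters of `N` nontrivial on `K`, and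
`star` is an isometry on `ℤ[S]` extending induction. -/
structure CohSetup (K N : Subgroup G) [Fintype N] (S : Set (N → ℂ)) (star : (N → ℂ) → G → ℂ) :
    Prop where
  normal : (K.subgroupOf N).Normal
  ti : ∀ g : G, g ∉ N → ∀ k ∈ K, g * k * g⁻¹ ∈ K → k = 1
  cent : ∀ k ∈ K, k ≠ 1 → Subgroup.centralizer ({k} : Set G) ≤ K
  le : K ≤ N
  mem : ∀ χ, χ ∈ S ↔ IsIrrCharacter N χ ∧ ∃ k : N, (k : G) ∈ K ∧ χ k ≠ χ 1
  isom : IsLinearIsometryOn (zspan S) star
  ext : ∀ α ∈ zspanOn S ({1}ᶜ : Set N), star α = indFun N α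

namespace CohSetup

variable {K N : Subgroup G} [Fintype N] {S : Set (N → ℂ)} {star : (N → ℂ) → G → ℂ}
  (h : CohSetup K N S star)
include h

theorem cent' : ∀ k ∈ K.subgroupOf N, k ≠ 1 →
    Subgroup.centralizer ({k} : Set N) ≤ K.subgroupOf N := by
  intro k hk hk1 x hx
  refine h.cent k hk (fun h => hk1 (Subtype.ext h)) ?_
  rw [Subgroup.mem_centralizer_singleton_iff] at hx ⊢
  exact congrArg Subtype.val hx

theorem vanish {χ : N → ℂ} (hχ : χ ∈ S) {x : N} (hx : (x : G) ∉ K) : χ x = 0 :=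
  have := h.normal
  eq_zero_of_not_mem (K.subgroupOf N) h.cent' ((h.mem χ).mp hχ).1 ((h.mem χ).mp hχ).2 hx

theorem irr {χ : N → ℂ} (hχ : χ ∈ S) : IsIrrCharacter N χ := ((h.mem χ).mp hχ).1

theorem virtual {χ : N → ℂ} (hχ : χ ∈ S) : IsGeneralizedCharacter G (star χ) :=
  h.isom.2.2.2 χ (Submodule.subset_span hχ)

theorem inner {χ ξ : N → ℂ} (hχ : χ ∈ S) (hξ : ξ ∈ S) :
    classInner (star χ) (star ξ) = classInner χ ξ :=
  h.isom.2.2.1 χ (Submodule.subset_span hχ) ξ (Submodule.subset_span hξ)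

theorem ind_comb {χ ξ : N → ℂ} (hχ : χ ∈ S) (hξ : ξ ∈ S) :
    indFun N (ξ 1 • χ - χ 1 • ξ) = ξ 1 • star χ - χ 1 • star ξ := by
  have m1 : χ ∈ zspan S := Submodule.subset_span hχ
  have m2 : ξ ∈ zspan S := Submodule.subset_span hξ
  have e : ξ 1 • χ - χ 1 • ξ = (charDegree ξ : ℤ) • χ + (-(charDegree χ : ℤ)) • ξ := by
    rw [← (h.irr hχ).coe_charDegree, ← (h.irr hξ).coe_charDegree]
    funext x
    simp [sub_eq_add_neg]
  have m3 : (charDegree ξ : ℤ) • χ ∈ zspan S := Submodule.smul_mem _ _ m1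
  have m4 : (-(charDegree χ : ℤ)) • ξ ∈ zspan S := Submodule.smul_mem _ _ m2
  rw [← h.ext _ ⟨by rw [e]; exact Submodule.add_mem _ m3 m4, fun x hx => by
    have : x = 1 := by simpa using hx
    simp [this, mul_comm]⟩, e, h.isom.1 _ m3 _ m4, h.isom.2.1 _ m1, h.isom.2.1 _ m2,
    ← (h.irr hχ).coe_charDegree, ← (h.irr hξ).coe_charDegree]
  funext x
  simp [sub_eq_add_neg]

theorem inner_comb {χ ξ : N → ℂ} (hχ : χ ∈ S) (hξ : ξ ∈ S) {ψ : G → ℂ}
    (hψ : IsClassFunction G ψ) :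
    ξ 1 * classInner (fun x : N => ψ x) χ - χ 1 * classInner (fun x : N => ψ x) ξ =
      ξ 1 * classInner ψ (star χ) - χ 1 * classInner ψ (star ξ) := by
  have h1 := classInner_indFun_right N (ξ 1 • χ - χ 1 • ξ) hψ
  rw [h.ind_comb hχ hξ] at h1
  simp only [classInner_sub_right, classInner_smul_right, (h.irr hχ).isCharacter.conj_apply_one,
    (h.irr hξ).isCharacter.conj_apply_one] at h1
  exact h1.symm

theorem apply_comb {χ ξ : N → ℂ} (hχ : χ ∈ S) (hξ : ξ ∈ S) (k : N) (hk : (k : G) ∈ K)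
    (hk1 : k ≠ 1) : ξ 1 * star χ k - χ 1 * star ξ k = ξ 1 * χ k - χ 1 * ξ k := by
  have h1 := indFun_eq_of_ti N K h.ti (ψ := ξ 1 • χ - χ 1 • ξ)
    (((h.irr hχ).isClassFunction.smul _).sub ((h.irr hξ).isClassFunction.smul _))
    (fun x hx => by simp [h.vanish hχ hx, h.vanish hξ hx]) k hk hk1
  rw [h.ind_comb hχ hξ] at h1
  simpa using h1

/-- A class function of `G` orthogonal to all `star χ` is constant on `K \ 1`. -/
theorem const_of_orthogonal {ψ : G → ℂ} (hψ : IsClassFunction G ψ)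
    (ho : ∀ χ ∈ S, classInner ψ (star χ) = 0) : ∃ a : ℂ, ∀ k ∈ K, k ≠ 1 → ψ k = a := by
  obtain ⟨c, hc⟩ := exists_proportional (K.subgroupOf N) (ψ := fun x : N => ψ x) (by
    intro φ ξ hφ hφk hξ hξk
    have m1 := (h.mem φ).mpr ⟨hφ, hφk⟩
    have m2 := (h.mem ξ).mpr ⟨hξ, hξk⟩
    have := h.inner_comb m1 m2 hψ
    rw [ho φ m1, ho ξ m2] at this
    linear_combination this)
  exact ⟨_, fun k hk hk1 => apply_eq_of_proportional (K.subgroupOf N) (hψ.restrict N) c hc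
    (k := ⟨k, h.le hk⟩) hk (fun e => hk1 (congrArg Subtype.val e))⟩

theorem const_sub {χ : N → ℂ} (hχ : χ ∈ S) :
    ∃ a : ℤ, ∀ k : N, (k : G) ∈ K → k ≠ 1 → star χ k - χ k = a := by
  have hv := ((h.virtual hχ).restrict N).sub (h.irr hχ).isGeneralizedCharacter
  obtain ⟨c, hc⟩ := exists_proportional (K.subgroupOf N) (ψ := (fun x : N => star χ x) - χ) (by
    intro φ ξ hφ hφk hξ hξk
    have m1 := (h.mem φ).mpr ⟨hφ, hφk⟩
    have m2 := (h.mem ξ).mpr ⟨hξ, hξk⟩
    have := h.inner_comb m1 m2 (h.virtual hχ).isClassFunction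
    rw [h.inner hχ m1, h.inner hχ m2] at this
    rw [classInner_sub_left, classInner_sub_left]
    linear_combination this)
  have h1 := fun k hk hk1 => apply_eq_of_proportional (K.subgroupOf N) hv.isClassFunction c hc
    (k := k) hk hk1
  obtain ⟨k₀, hk₀, hk₀'⟩ := ((h.mem χ).mp hχ).2
  obtain ⟨m, hm⟩ := exists_int_of_const (K.subgroupOf N) hv h1
    ((Subgroup.ne_bot_iff_exists_ne_one).mpr ⟨⟨k₀, hk₀⟩, fun e => hk₀' (by
      rw [show k₀ = 1 from congrArg Subtype.val e])⟩)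
  exact ⟨m, fun k hk hk1 => hm ▸ h1 k hk hk1⟩

theorem exists_int (hne : S.Nonempty) : ∃ m : ℤ, ∀ χ ∈ S, ∀ k : N, (k : G) ∈ K → k ≠ 1 →
    star χ k - χ k = (m : ℂ) * χ 1 / ((K.subgroupOf N).index : ℂ) := by
  have := h.normal
  obtain ⟨ξ, hξ⟩ := hne
  obtain ⟨k₀, hk₀, hk₀'⟩ := ((h.mem ξ).mp hξ).2
  have hk₀1 : k₀ ≠ 1 := fun e => hk₀' (by rw [e])
  obtain ⟨a, ha⟩ := h.const_sub hξ
  have he : ((K.subgroupOf N).index : ℂ) ≠ 0 := by exact_mod_cast Subgroup.index_ne_zero_of_finite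
  have hξ1 := (h.irr hξ).apply_one_ne_zero
  have key : ∀ χ ∈ S, ∀ k : N, (k : G) ∈ K → k ≠ 1 → star χ k - χ k =
      (a * (K.subgroupOf N).index / ξ 1) * χ 1 / ((K.subgroupOf N).index : ℂ) := by
    intro χ hχ k hk hk1
    have h1 := h.apply_comb hχ hξ k hk hk1
    have h2 := ha k hk hk1
    field_simp
    linear_combination h1 + χ 1 * h2
  have : Nontrivial (K.subgroupOf N) := ⟨⟨⟨k₀, hk₀⟩, 1, fun e => hk₀1 (congrArg Subtype.val e)⟩⟩
  obtain ⟨m, hm⟩ := exists_int_of_mul_degree (K := K.subgroupOf N)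
    (m := a * (K.subgroupOf N).index / ξ 1) (by
      intro θ hθ hθ1
      have := Fintype.ofFinite (K.subgroupOf N)
      have hirr := isIrrCharacter_indFun_of_inertia_le hθ
        (inertia_le_of_centralizer_le _ h.cent' hθ hθ1)
      have hmem : indFun (K.subgroupOf N) θ ∈ S := by
        refine (h.mem _).mpr ⟨hirr, ?_⟩
        by_contra hcon
        push Not at hcon
        have h1 := classInner_indFun_left (K.subgroupOf N) θ hirr.isClassFunction
        rw [hirr.classInner_self] at h1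
        have h2 : (fun x : K.subgroupOf N => indFun (K.subgroupOf N) θ x) =
            indFun (K.subgroupOf N) θ 1 • fun _ => (1 : ℂ) := by
          funext x
          simpa using hcon x x.2
        rw [h2, classInner_smul_right, hθ.classInner_one hθ1] at h1
        simp at h1
      obtain ⟨b, hb⟩ := h.const_sub hmem
      refine ⟨b, ?_⟩
      rw [← hb k₀ hk₀ hk₀1, key _ hmem k₀ hk₀ hk₀1, indFun_one]
      field_simp)
  exact ⟨m, fun χ hχ k hk hk1 => by rw [key χ hχ k hk hk1, hm]⟩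

/-- If `S` has two members then no member of `S` is constant on `K \ 1`. -/
theorem not_const {χ ξ : N → ℂ} (hχ : χ ∈ S) (hξ : ξ ∈ S) (hne : χ ≠ ξ) {a : ℂ}
    (ha : ∀ k : N, (k : G) ∈ K → k ≠ 1 → χ k = a) : False := by
  classical
  have hne1 : ∀ φ ∈ S, φ ≠ fun _ => 1 := by
    intro φ hφ e
    obtain ⟨k, -, hk⟩ := ((h.mem φ).mp hφ).2
    exact hk (by rw [e])
  -- `χ` agrees with `a` times the indicator of `K` off the identity
  have key : ∀ f : N → ℂ, (∀ x : N, (x : G) ∉ K → f x = 0) →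
      ∑ x, χ x * f x = (χ 1 - a) * f 1 + a * ∑ x, f x := by
    intro f hf
    rw [Finset.mul_sum, ← Finset.add_sum_erase _ _ (Finset.mem_univ (1 : N)),
      ← Finset.add_sum_erase _ _ (Finset.mem_univ (1 : N)),
      Finset.sum_congr rfl (g := fun x => a * f x) (fun x hx => by
        by_cases hxK : (x : G) ∈ K
        · rw [ha x hxK (Finset.mem_erase.mp hx).1]
        · rw [hf x hxK]; simp)]
    ring
  have h1 := key (fun x => conj (ξ x)) (fun x hx => by simp [h.vanish hξ hx])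
  rw [← card_mul_classInner, (h.irr hχ).classInner_eq_zero (h.irr hξ) hne, ← map_sum,
    (h.irr hξ).sum_eq_zero (hne1 ξ hξ), (h.irr hξ).isCharacter.conj_apply_one] at h1
  have h2 : χ 1 = a := by
    have := (h.irr hξ).apply_one_ne_zero
    have h3 : (χ 1 - a) * ξ 1 = 0 := by simpa using h1.symm
    exact sub_eq_zero.mp ((mul_eq_zero.mp h3).resolve_right this)
  obtain ⟨k, hk, hk'⟩ := ((h.mem χ).mp hχ).2
  exact hk' ((ha k hk (fun e => hk' (by rw [e]))).trans h2.symm)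

theorem exceptional_iff (htwo : ∃ χ ∈ S, ∃ ξ ∈ S, χ ≠ ξ) {ψ : G → ℂ} (hψ : IsIrrCharacter G ψ) :
    (∃ χ ∈ S, ψ = star χ ∨ ψ = -star χ) ↔ ∃ a ∈ K, ∃ b ∈ K, a ≠ 1 ∧ b ≠ 1 ∧ ψ a ≠ ψ b := by
  constructor
  · rintro ⟨χ, hχ, hψχ⟩
    by_contra hcon
    push Not at hcon
    obtain ⟨ξ, hξ, hne⟩ : ∃ ξ ∈ S, χ ≠ ξ := by
      obtain ⟨χ₁, h1, χ₂, h2, h12⟩ := htwo
      by_cases e : χ = χ₁
      · exact ⟨χ₂, h2, e ▸ h12⟩
      · exact ⟨χ₁, h1, e⟩
    obtain ⟨m, hm⟩ := h.const_sub hχ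
    obtain ⟨k₀, hk₀, hk₀'⟩ := ((h.mem χ).mp hχ).2
    have hk₀1 : k₀ ≠ 1 := fun e => hk₀' (by rw [e])
    refine h.not_const hχ hξ hne (a := χ k₀) fun k hk hk1 => ?_
    have e1 := hcon k hk k₀ hk₀ (fun e => hk1 (Subtype.ext e)) (fun e => hk₀1 (Subtype.ext e))
    have e2 := hm k hk hk1
    have e3 := hm k₀ hk₀ hk₀1
    rcases hψχ with rfl | rfl
    · linear_combination e1 - e2 + e3
    · simp only [Pi.neg_apply] at e1
      linear_combination -e1 - e2 + e3
  · rintro ⟨a, ha, b, hb, ha1, hb1, hab⟩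
    by_contra hcon
    push Not at hcon
    obtain ⟨c, hc⟩ := h.const_of_orthogonal hψ.isClassFunction (by
      intro χ hχ
      rcases (h.virtual hχ).irr_or_neg_irr_of_norm_one
        (by rw [h.inner hχ hχ, (h.irr hχ).classInner_self]) with h1 | h1
      · exact hψ.classInner_eq_zero h1 (hcon χ hχ).1
      · have := hψ.classInner_eq_zero h1 (hcon χ hχ).2
        rwa [classInner_neg_right, neg_eq_zero] at this)
    exact hab ((hc a ha ha1).trans (hc b hb hb1).symm)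

end CohSetup

end Cfsg.Agent.Ch.Exc
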